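import Mathlib

set_option autoImplicit false
set_option linter.style.haveILetI false

/-!
Extending injective linear maps, affine maps and 3-closures (S3515, S3516, S3517). Owner: helper58.
-/

namespace Cfsg.Agent.ExtPrim

section Ext

variable {K V : Type*} [Field K] [AddCommGroup V] [Module K V] [FiniteDimensional K V]

theorem exists_equiv_of_submodule (W W' : Submodule K V) (e : W ≃ₗ[K] W') :
    ∃ A : V ≃ₗ[K] V, ∀ w : W, A w = e w := by
  obtain ⟨C, hC⟩ := W.exists_isCompl
  obtain ⟨C', hC'⟩ := W'.exists_isCompl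
  have h1 : Module.finrank K C = Module.finrank K C' := by
    have h2 := Submodule.finrank_add_eq_of_isCompl hC
    have h3 := Submodule.finrank_add_eq_of_isCompl hC'
    have h4 := e.finrank_eq
    omega
  obtain ⟨f⟩ := FiniteDimensional.nonempty_linearEquiv_of_finrank_eq h1
  refine ⟨(Submodule.prodEquivOfIsCompl W C hC).symm ≪≫ₗ (LinearEquiv.prodCongr e f) ≪≫ₗ
    (Submodule.prodEquivOfIsCompl W' C' hC'), fun w => ?_⟩
  rw [LinearEquiv.trans_apply, LinearEquiv.trans_apply]
  have h5 : (Submodule.prodEquivOfIsCompl W C hC).symm (w : V) = (w, 0) := by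
    rw [LinearEquiv.symm_apply_eq]
    simp
  rw [h5]
  simp

theorem exists_equiv_of_linearIndependent {ι : Type*} {v v' : ι → V} (hv : LinearIndependent K v)
    (hv' : LinearIndependent K v') : ∃ A : V ≃ₗ[K] V, ∀ i, A (v i) = v' i := by
  obtain ⟨A, hA⟩ := exists_equiv_of_submodule _ _
    ((Module.Basis.span hv).equiv (Module.Basis.span hv') (Equiv.refl ι))
  refine ⟨A, fun i => ?_⟩
  have h1 := hA (Module.Basis.span hv i)
  rw [Module.Basis.equiv_apply, Equiv.refl_apply] at h1
  rwa [Module.Basis.span_apply, Module.Basis.span_apply] at h1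

/-- a linear automorphism trivial on `U` with prescribed determinant -/
theorem exists_det_eq (U : Submodule K V) (hU : U ≠ ⊤) (c : K) (hc : c ≠ 0) :
    ∃ B : V ≃ₗ[K] V, (∀ u ∈ U, B u = u) ∧ LinearMap.det (B : V →ₗ[K] V) = c := by
  obtain ⟨f, hf, hfU⟩ := Submodule.exists_dual_map_eq_bot_of_lt_top (lt_top_iff_ne_top.mpr hU)
    inferInstance
  obtain ⟨w, hw⟩ : ∃ w, f w ≠ 0 := by
    by_contra hcon
    push Not at hcon
    exact hf (LinearMap.ext hcon)
  have hfu : ∀ u ∈ U, f u = 0 := by
    intro u hu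
    have : f u ∈ U.map f := ⟨u, hu, rfl⟩
    rw [hfU] at this
    exact this
  set v := ((c - 1) / f w) • w with hv
  have hfv : f v = c - 1 := by
    rw [hv, map_smul, smul_eq_mul, div_mul_cancel₀ _ hw]
  have hdet : LinearMap.det (LinearMap.transvection f v) = c := by
    rw [LinearMap.transvection.det, hfv]; ring
  refine ⟨LinearEquiv.ofIsUnitDet (f := LinearMap.transvection f v) (v := Module.finBasis K V)
    (v' := Module.finBasis K V) ?_, ?_, ?_⟩
  · rw [LinearMap.det_toMatrix, hdet]
    exact IsUnit.mk0 _ hc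
  · intro u hu
    change LinearMap.transvection f v u = u
    rw [LinearMap.transvection.apply, hfu u hu, zero_smul, add_zero]
  · exact hdet

end Ext

/-- maps preserving affine combinations on lines are affine (`p` odd) -/
theorem exists_linear_of_lines {p : ℕ} [hp : Fact p.Prime] (hp2 : p ≠ 2) {V : Type*}
    [AddCommGroup V] [Module (ZMod p) V] (σ : V → V)
    (h : ∀ (x y : V) (t : ZMod p), σ (x + t • (y - x)) = σ x + t • (σ y - σ x)) :
    ∃ A : V →ₗ[ZMod p] V, ∀ x, σ x = A x + σ 0 := by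
  have h2 : (2 : ZMod p) ≠ 0 := by
    have h3 : ((2 : ℕ) : ZMod p) ≠ 0 := by
      intro h3
      rw [ZMod.natCast_eq_zero_iff] at h3
      exact hp2 ((Nat.prime_dvd_prime_iff_eq hp.out Nat.prime_two).mp h3)
    exact_mod_cast h3
  set τ : V → V := fun x => σ x - σ 0 with hτ
  have hτl : ∀ (x y : V) (t : ZMod p), τ (x + t • (y - x)) = τ x + t • (τ y - τ x) := by
    intro x y t
    simp only [hτ, h x y t]
    rw [sub_sub_sub_cancel_right]
    abel
  have hτ0 : τ 0 = 0 := by simp [hτ]
  have hsmul : ∀ (t : ZMod p) (x : V), τ (t • x) = t • τ x := by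
    intro t x
    have := hτl 0 x t
    rwa [zero_add, sub_zero, hτ0, zero_add, sub_zero] at this
  have hadd : ∀ x y : V, τ (x + y) = τ x + τ y := by
    intro x y
    have h3 : x + y = (2 : ZMod p) • (x + (2 : ZMod p)⁻¹ • (y - x)) := by
      rw [smul_add, smul_smul, mul_inv_cancel₀ h2, one_smul, two_smul]
      abel
    rw [h3, hsmul, hτl, smul_add, smul_smul, mul_inv_cancel₀ h2, one_smul, two_smul]
    abel
  refine ⟨{ toFun := τ, map_add' := hadd, map_smul' := hsmul }, fun x => ?_⟩
  change σ x = (σ x - σ 0) + σ 0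
  abel

/-- the 3-closure hypothesis gives affinity on lines -/
theorem lines_of_closed {p : ℕ} [hp : Fact p.Prime] {V : Type*} [AddCommGroup V] [Module (ZMod p) V]
    (G : Set (Equiv.Perm V))
    (haff : G ⊆ {τ : Equiv.Perm V | ∃ (A : V ≃ₗ[ZMod p] V) (b : V), ∀ x, τ x = A x + b})
    (σ : Equiv.Perm V) (hσ : ∀ t : Fin 3 → V, ∃ g ∈ G, ∀ i, σ (t i) = g (t i)) :
    ∀ (x y : V) (t : ZMod p), σ (x + t • (y - x)) = σ x + t • (σ y - σ x) := by
  intro x y t
  obtain ⟨g, hg, hgt⟩ := hσ ![x, y, x + t • (y - x)]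
  obtain ⟨A, b, hA⟩ := haff hg
  have h0 := hgt 0
  have h1 := hgt 1
  have h2 := hgt 2
  simp only [Matrix.cons_val_zero, Matrix.cons_val_one, Matrix.cons_val] at h0 h1 h2
  rw [h2, h0, h1, hA, hA, hA, map_add, map_smul, map_sub]
  simp only [smul_sub, smul_add]
  abel

end Cfsg.Agent.ExtPrim
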