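import Cfsg.Agent.ExtPrim.Singer
import Cfsg.Agent.ExtPrim.PrimNormal

set_option autoImplicit false
set_option linter.style.haveILetI false

/-! Elements of `p`-power order in affine groups (S3508). Owner: helper58. -/

namespace Cfsg.Agent.ExtPrim

open MulAction Polynomial

/-- geometric sums in characteristic `p` -/
theorem geom_sum_char {p : ℕ} [hp : Fact p.Prime] (k : ℕ) :
    ∑ i ∈ Finset.range (p ^ k), (X : (ZMod p)[X]) ^ i = (X - 1) ^ (p ^ k - 1) := by
  have h1 : (X - 1 : (ZMod p)[X]) ≠ 0 := X_sub_C_ne_zero (1 : ZMod p)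
  apply mul_right_cancel₀ h1
  rw [geom_sum_mul, ← pow_succ, Nat.sub_add_cancel (Nat.one_le_pow _ _ hp.out.pos),
    sub_pow_char_pow, one_pow]

theorem affine_order {G : Type*} [Group G] [Finite G] {Ω : Type*} [Fintype Ω] [MulAction G Ω]
    [FaithfulSMul G Ω] (p m : ℕ) (hp : p.Prime) (hcard : Fintype.card Ω = p ^ m)
    (N : Subgroup G) [hN : N.Normal] (hNc : IsMulCommutative N) (hNp : ∀ n ∈ N, n ^ p = 1)
    (hNtr : IsPretransitive N Ω) (hNreg : ∀ ω : Ω, stabilizer N ω = ⊥)
    (g : G) (r : ℕ) (hr : 1 ≤ r) (hg : orderOf g = p ^ r) : p ^ (r - 1) ≤ m := by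
  classical
  haveI : Fact p.Prime := ⟨hp⟩
  by_contra hlt
  push Not at hlt
  have hΩpos : 0 < Fintype.card Ω := by rw [hcard]; exact pow_pos hp.pos m
  obtain ⟨α⟩ : Nonempty Ω := Fintype.card_pos_iff.mp hΩpos
  letI instN : CommGroup N := { (inferInstance : Group N) with mul_comm := hNc.is_comm.comm }
  have hNpow : ∀ x : N, x ^ p = 1 := fun x => Subtype.ext (hNp x x.2)
  have hNcomm : ∀ x ∈ N, ∀ y ∈ N, x * y = y * x := fun x hx y hy =>
    congrArg Subtype.val (hNc.is_comm.comm (⟨x, hx⟩ : N) ⟨y, hy⟩)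
  have hNcard : Nat.card N = p ^ m := by
    rw [card_eq_of_regular N hNtr α (hNreg α), Nat.card_eq_fintype_card, hcard]
  let κ : G →* MulAut N := MulAut.conjNormal (H := N)
  have hκ : ∀ (g : G) (x : N), ((κ g x : N) : G) = g * x * g⁻¹ := fun g x => rfl
  obtain ⟨inst, ρ, hinj, hρ⟩ := exists_linear_rep (N := N) p hNpow
  haveI hfinV : Finite (Additive N) := inferInstanceAs (Finite N)
  haveI : Module.Finite (ZMod p) (Additive N) := Module.Finite.of_finite
  set s : Module.End (ZMod p) (Additive N) := ρ (κ g) with hs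
  have hfr : Module.finrank (ZMod p) (Additive N) = m := by
    have h1 := Module.natCard_eq_pow_finrank (K := ZMod p) (V := Additive N)
    rw [Nat.card_zmod, show Nat.card (Additive N) = p ^ m from hNcard] at h1
    exact (Nat.pow_right_injective hp.two_le h1).symm
  -- aeval
  have hfrob : ∀ k : ℕ, (s - 1) ^ p ^ k = s ^ p ^ k - 1 := by
    intro k
    have h1 : ((X - 1 : (ZMod p)[X])) ^ p ^ k = X ^ p ^ k - 1 := by
      rw [sub_pow_char_pow, one_pow]
    have h2 := congrArg (aeval s) h1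
    simpa using h2
  have hsum : ∀ k : ℕ, ∑ i ∈ Finset.range (p ^ k), s ^ i = (s - 1) ^ (p ^ k - 1) := by
    intro k
    have h2 := congrArg (aeval s) (geom_sum_char (p := p) k)
    simpa using h2
  have hnil : IsNilpotent (s - 1) := by
    refine ⟨p ^ r, ?_⟩
    rw [hfrob, hs, ← map_pow, ← map_pow, ← hg, pow_orderOf_eq_one, map_one, map_one, sub_self]
  have hm0 : (s - 1) ^ m = 0 := by
    have h1 := IsNilpotent.charpoly_eq_X_pow_finrank hnil
    have h2 := LinearMap.aeval_self_charpoly (s - 1)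
    rw [h1, hfr] at h2
    simpa using h2
  have hge : ∀ k, m ≤ k → (s - 1) ^ k = 0 := by
    intro k hk
    rw [← Nat.sub_add_cancel hk, pow_add, hm0, mul_zero]
  set q := p ^ (r - 1) with hq
  have hsq : s ^ q = 1 := by
    have h1 := hfrob (r - 1)
    rw [← hq, hge q hlt.le] at h1
    exact (sub_eq_zero.mp h1.symm)
  have hsumq : ∑ i ∈ Finset.range q, s ^ i = 0 := by
    rw [hq, hsum, ← hq]
    exact hge _ (by omega)
  -- decomposition
  obtain ⟨⟨n, hn⟩, hnα⟩ := hNtr.exists_smul_eq α (g • α)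
  have hnα' : n • α = g • α := hnα
  set h := n⁻¹ * g with hh
  have hhα : h • α = α := by rw [hh, mul_smul, ← hnα', inv_smul_smul]
  have hgn : g = n * h := by rw [hh]; group
  have hκh : κ h = κ g := by
    rw [hh, map_mul]
    have : κ n⁻¹ = 1 := by
      ext x
      rw [hκ, hNcomm n⁻¹ (N.inv_mem hn) x x.2, mul_assoc, mul_inv_cancel, mul_one]
      rfl
    rw [this, one_mul]
  have hdec : ∀ j : ℕ, ∃ x : N, Additive.ofMul x = (∑ i ∈ Finset.range j, s ^ i) (Additive.ofMul (⟨n, hn⟩ : N)) ∧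
      g ^ j = x * h ^ j := by
    intro j
    induction j with
    | zero => exact ⟨1, by simp, by simp⟩
    | succ j ih =>
      obtain ⟨x, hx, hgx⟩ := ih
      refine ⟨⟨n, hn⟩ * κ h x, ?_, ?_⟩
      · rw [ofMul_mul, ← hρ, hκh, ← hs, hx, ← Module.End.mul_apply, Finset.mul_sum,
          Finset.sum_range_succ', pow_zero]
        have h3 : ∑ i ∈ Finset.range j, s * s ^ i = ∑ i ∈ Finset.range j, s ^ (i + 1) :=
          Finset.sum_congr rfl (fun i _ => (pow_succ' s i).symm)
        rw [h3, LinearMap.add_apply, Module.End.one_apply, add_comm]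
      · rw [pow_succ', hgx, hgn, Subgroup.coe_mul, hκ]
        rw [pow_succ' h]
        group
  obtain ⟨x, hx, hgx⟩ := hdec q
  rw [hsumq, LinearMap.zero_apply] at hx
  have hx1 : x = 1 := hx
  have hhq : h ^ q = 1 := by
    refine eq_one_of_centralizes_transitive (Δ := Ω) N hNtr (δ := α) ?_ ?_
    · intro k hk
      have h3 : κ (h ^ q) = 1 := by
        apply hinj
        rw [map_pow, hκh, map_pow, map_one]
        exact hsq
      have h4 := hκ (h ^ q) ⟨k, hk⟩
      rw [h3] at h4
      have h5 : k = h ^ q * k * (h ^ q)⁻¹ := h4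
      rw [eq_mul_inv_iff_mul_eq] at h5
      exact h5
    · have : ∀ j : ℕ, (h ^ j) • α = α := by
        intro j
        induction j with
        | zero => rw [pow_zero, one_smul]
        | succ j ih => rw [pow_succ, mul_smul, hhα, ih]
      exact this q
  have hgq : g ^ q = 1 := by
    rw [hgx, hx1, hhq]; simp
  have h6 := orderOf_dvd_of_pow_eq_one hgq
  rw [hg, hq] at h6
  have h7 := (Nat.pow_dvd_pow_iff_le_right hp.one_lt).mp h6
  omega

end Cfsg.Agent.ExtPrim
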