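import Cfsg.Agent.ExtPrim.SimpleAct
import Cfsg.Agent.ExtPrim.Basic
import Cfsg.Agent.H59.PrimComp2

set_option autoImplicit false
set_option linter.style.haveILetI false

/-!
Extremely primitive groups are affine or almost simple (S3493). Owner: helper58.
-/

namespace Cfsg.Agent.ExtPrim

open MulAction Cfsg.Agent.H59
open scoped Pointwise

variable {G Ω : Type*} [Group G] [MulAction G Ω]

/-- two point stabilizers are maximal in point stabilizers -/
theorem isCoatom_two_point [Finite G] [FaithfulSMul G Ω] (hprim : IsPreprimitive G Ω)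
    (hep : IsEP G Ω) {α β : Ω} (hH : stabilizer G α ≠ ⊥) (hαβ : α ≠ β) :
    IsCoatom (stabilizer (stabilizer G α) β) := by
  have hnt := nontrivial_suborbit hprim hH hαβ
  have hp := hep α β
  have h1 : IsCoatom (stabilizer (stabilizer G α) (⟨β, mem_orbit_self β⟩ :
      orbit (stabilizer G α) β)) :=
    hp.isCoatom_stabilizer_of_isPreprimitive (stabilizer G α) _
  have h2 : stabilizer (stabilizer G α) (⟨β, mem_orbit_self β⟩ : orbit (stabilizer G α) β) =
      stabilizer (stabilizer G α) β := by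
    ext g
    rw [mem_stabilizer_iff, mem_stabilizer_iff]
    constructor
    · intro h
      exact congrArg Subtype.val h
    · intro h
      exact Subtype.ext h
  rwa [h2] at h1

/-- the diagonal case -/
theorem false_of_regular_pair [Finite G] [FaithfulSMul G Ω] (T : Subgroup G)
    (hT : IsSimpleGroup T) (hTc : ¬ IsMulCommutative T) (α : Ω) [htr : IsPretransitive T Ω]
    (hreg : ∀ t ∈ T, t • α = α → t = 1)
    (hC : IsPretransitive (Subgroup.centralizer (T : Set G)) Ω)
    (hconj : ∀ g : G, MulAut.conj g • T = T ∨ ∀ x ∈ T, ∀ y ∈ MulAut.conj g • T, x * y = y * x)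
    (hcoat : ∀ β : Ω, α ≠ β → IsCoatom (stabilizer (stabilizer G α) β)) : False := by
  have hinj : ∀ s ∈ T, ∀ t ∈ T, s • α = t • α → s = t := by
    intro s hs t ht hst
    have h1 := hreg (t⁻¹ * s) (T.mul_mem (T.inv_mem ht) hs) (by
      rw [mul_smul, hst, inv_smul_smul])
    exact (inv_mul_eq_one.mp h1).symm
  let e : T ≃ Ω := Equiv.ofBijective (fun t : T => (t : G) • α) ⟨by
    intro s t hst
    exact Subtype.ext (hinj s s.2 t t.2 hst), by
    intro x
    obtain ⟨t, ht⟩ := MulAction.exists_smul_eq T α x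
    exact ⟨t, ht⟩⟩
  have he : ∀ t : T, e t = (t : G) • α := fun t => rfl
  letI : MulAction (stabilizer G α) T := e.mulAction (stabilizer G α)
  have hsm : ∀ (h : stabilizer G α) (t : T), ((h • t : T) : G) • α = (h : G) • (t : G) • α := by
    intro h t
    rw [← he (h • t), ← he t]
    change e (e.symm (h • e t)) = _
    rw [Equiv.apply_symm_apply]
    rfl
  have hst : ∀ h : stabilizer G α, (h : G) • α = α := fun h => h.2
  have hst' : ∀ h : stabilizer G α, (h : G)⁻¹ • α = α := fun h => by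
    rw [inv_smul_eq_iff]; exact (hst h).symm
  have h1 : AutOrAnti (stabilizer G α) T := by
    intro h
    rcases hconj h with hc | hc
    · left
      have hval : ∀ x : T, ((h • x : T) : G) = (h : G) * x * (h : G)⁻¹ := by
        intro x
        apply hinj _ (h • x).2 _
        · have h5 := conj_mem_conj_smul (g := (h : G)) x.2
          rwa [hc] at h5
        · rw [hsm, mul_smul, mul_smul, hst']
      intro x y
      apply Subtype.ext
      rw [Subgroup.coe_mul, hval, hval, hval, Subgroup.coe_mul]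
      group
    · right
      intro x y
      apply Subtype.ext
      apply hinj _ (h • (x * y)).2 _ ((h • y) * (h • x)).2
      rw [hsm, Subgroup.coe_mul, Subgroup.coe_mul, mul_smul (((h • y : T) : G)), hsm]
      have h2 := hc _ (h • y).2 _ (conj_mem_conj_smul (g := (h : G)) x.2)
      calc (h : G) • ((x : G) * (y : G)) • α = ((h : G) * x * (h : G)⁻¹) • (h : G) • (y : G) • α := by
            rw [← mul_smul, ← mul_smul, ← mul_smul]; congr 1; group
        _ = ((h : G) * x * (h : G)⁻¹) • ((h • y : T) : G) • α := by rw [hsm]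
        _ = ((h • y : T) : G) • ((h : G) * x * (h : G)⁻¹) • α := by
            rw [← mul_smul, ← h2, mul_smul]
        _ = ((h • y : T) : G) • (h : G) • (x : G) • α := by
            rw [mul_smul ((h : G) * x), hst', mul_smul]
  refine AutOrAnti.false_of_coatoms (A := stabilizer G α) hT hTc h1 ?_ ?_
  · intro t
    obtain ⟨⟨c, hc⟩, hcα⟩ := MulAction.exists_smul_eq (Subgroup.centralizer (T : Set G)) α
      ((t : G)⁻¹ • α)
    have hcα' : c • α = (t : G)⁻¹ • α := hcα
    have hmem : (t : G) * c ∈ stabilizer G α := by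
      rw [mem_stabilizer_iff, mul_smul, hcα', smul_inv_smul]
    refine ⟨⟨(t : G) * c, hmem⟩, fun x => ?_⟩
    apply Subtype.ext
    apply hinj _ (Subtype.property _) _ (Subtype.property _)
    rw [hsm]
    change ((t : G) * c) • (x : G) • α = ((t : G) * x * (t : G)⁻¹) • α
    rw [← mul_smul, mul_assoc, ← Subgroup.mem_centralizer_iff.mp hc x x.2, mul_smul, mul_smul,
      hcα', ← mul_smul, ← mul_smul, mul_assoc]
  · intro x hx
    have h2 : stabilizer (stabilizer G α) x = stabilizer (stabilizer G α) ((x : G) • α) := by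
      ext h
      rw [mem_stabilizer_iff, mem_stabilizer_iff]
      constructor
      · intro h'
        change (h : G) • (x : G) • α = (x : G) • α
        rw [← hsm, h']
      · intro h'
        apply Subtype.ext
        apply hinj _ (Subtype.property _) _ x.2
        rw [hsm]
        exact h'
    rw [h2]
    apply hcoat
    intro h'
    exact hx (Subtype.ext (hreg x x.2 h'.symm))

/-- a conjugate of `T` by an element of `G` is a conjugate by an element of `G_α` -/
theorem exists_conj_stabilizer {N T : Subgroup G} (hN : N.Normal) (h : IsMinComp N T)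
    [IsPretransitive N Ω] (α : Ω) (g : G) :
    ∃ k : G, k • α = α ∧ MulAut.conj k • T = MulAut.conj g • T := by
  obtain ⟨⟨n, hn⟩, hnα⟩ := MulAction.exists_smul_eq N α (g • α)
  have hnα' : n • α = g • α := hnα
  refine ⟨n⁻¹ * g, ?_, ?_⟩
  · rw [mul_smul, ← hnα', inv_smul_smul]
  · have h1 : n⁻¹ * g = g * (g⁻¹ * n⁻¹ * g) := by group
    have h2 : g⁻¹ * n⁻¹ * g ∈ N := by
      have := hN.conj_mem n⁻¹ (N.inv_mem hn) g⁻¹
      rwa [inv_inv] at this
    rw [h1, conj_smul_mul, h.norm _ h2]

/-- Case A: `T` not semiregular -/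
theorem caseA [Finite G] [Finite Ω] [FaithfulSMul G Ω] (hprim : IsPreprimitive G Ω)
    (hH : ∀ α : Ω, stabilizer G α ≠ ⊥) (hep : IsEP G Ω) {N T : Subgroup G} (hN : N.Normal)
    (h : IsMinComp N T) [IsPretransitive N Ω] (hTN : T ≠ N) {x : G} (hx : x ∈ T) (hx1 : x ≠ 1)
    {α : Ω} (hxα : x • α = α) : False := by
  haveI : Nonempty Ω := ⟨α⟩
  set A : Set G := {x | (∃ g : G, x ∈ MulAut.conj g • T) ∧ x • α = α} with hA
  have hAconj : ∀ h : G, h • α = α → ∀ x ∈ A, h * x * h⁻¹ ∈ A := by
    rintro h hh x ⟨⟨g, hg⟩, hxα⟩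
    refine ⟨⟨h * g, ?_⟩, ?_⟩
    · rw [conj_smul_mul]
      exact conj_mem_conj_smul hg
    · rw [mul_smul, mul_smul, inv_smul_eq_iff.mpr hh.symm, hxα, hh]
  obtain ⟨t, ht, htd⟩ := h.exists_derangement (Ω := Ω)
  obtain ⟨g0, hg0, hg0c⟩ := h.exists_conj_ne hTN
  obtain ⟨k, hkα, hkT⟩ := exists_conj_stabilizer hN h α g0
  -- decomposition of elements of `R = closure A`
  have hdec : ∀ m ∈ Subgroup.closure A, ∃ r ∈ T, r • α = α ∧
      ∃ s ∈ Subgroup.centralizer (T : Set G), s • α = α ∧ m = r * s := by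
    intro m hm
    induction hm using Subgroup.closure_induction with
    | mem y hy =>
      obtain ⟨⟨g, hg⟩, hyα⟩ := hy
      rcases h.conj_eq_or_comm g with h1 | h1
      · rw [h1] at hg
        exact ⟨y, hg, hyα, 1, Subgroup.one_mem _, one_smul _ _, (mul_one y).symm⟩
      · refine ⟨1, T.one_mem, one_smul _ _, y, ?_, hyα, (one_mul y).symm⟩
        rw [Subgroup.mem_centralizer_iff]
        intro z hz
        exact h1 z hz y hg
    | one => exact ⟨1, T.one_mem, one_smul _ _, 1, Subgroup.one_mem _, one_smul _ _, (mul_one 1).symm⟩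
    | mul y z _ _ hy hz =>
      obtain ⟨r, hr, hrα, s, hs, hsα, rfl⟩ := hy
      obtain ⟨r', hr', hrα', s', hs', hsα', rfl⟩ := hz
      refine ⟨r * r', T.mul_mem hr hr', by rw [mul_smul, hrα', hrα], s * s',
        Subgroup.mul_mem _ hs hs', by rw [mul_smul, hsα', hsα], ?_⟩
      have h1 := Subgroup.mem_centralizer_iff.mp hs r' hr'
      calc r * s * (r' * s') = r * (s * r') * s' := by group
        _ = r * (r' * s) * s' := by rw [h1]
        _ = r * r' * (s * s') := by group
    | inv y _ hy =>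
      obtain ⟨r, hr, hrα, s, hs, hsα, rfl⟩ := hy
      refine ⟨r⁻¹, T.inv_mem hr, by rw [inv_smul_eq_iff, hrα], s⁻¹, Subgroup.inv_mem _ hs,
        by rw [inv_smul_eq_iff, hsα], ?_⟩
      have h1 := Subgroup.mem_centralizer_iff.mp hs r hr
      rw [mul_inv_rev, ← mul_inv_rev, ← mul_inv_rev, h1]
  have hRle : Subgroup.closure A ≤ stabilizer G α := by
    rw [Subgroup.closure_le]
    intro y hy
    exact hy.2
  have hRn : stabilizer G α ≤ Subgroup.normalizer (Subgroup.closure A : Set G) := by
    intro g hg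
    apply mem_normalizer_closure
    · intro y hy
      exact Subgroup.subset_closure (hAconj g hg y hy)
    · intro y hy
      have := hAconj g⁻¹ (by rw [inv_smul_eq_iff]; exact (hg : g • α = α).symm) y hy
      rw [inv_inv] at this
      exact Subgroup.subset_closure this
  have hR1 : Subgroup.closure A ≠ ⊥ := by
    intro h'
    have : x ∈ Subgroup.closure A := by
      apply Subgroup.subset_closure
      refine ⟨⟨1, ?_⟩, hxα⟩
      rw [map_one, one_smul]
      exact hx
    rw [h', Subgroup.mem_bot] at this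
    exact hx1 this
  have hβ : α ≠ t • α := (htd α).symm
  have htrans := transitive_on_suborbit hprim hH hep hβ (Subgroup.closure A) hRle hRn hR1
  -- the two points
  have hβ' : k • t • α ∈ orbit (stabilizer G α) (t • α) := ⟨⟨k, hkα⟩, rfl⟩
  have hs : k * t * k⁻¹ ∈ Subgroup.centralizer (T : Set G) := by
    apply hg0c
    rw [← hkT]
    exact conj_mem_conj_smul ht
  have hkβ : k • t • α = (k * t * k⁻¹) • α := by
    rw [mul_smul, mul_smul, inv_smul_eq_iff.mpr hkα.symm]
  have hfix1 : ∀ r ∈ T, r • α = α → r • (k • t • α) = k • t • α := by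
    intro r hr hrα
    rw [hkβ, ← mul_smul, Subgroup.mem_centralizer_iff.mp hs r hr, mul_smul, hrα]
  have hfix2 : ∀ s ∈ Subgroup.centralizer (T : Set G), s • α = α → s • (t • α) = t • α := by
    intro s hs' hsα
    rw [← mul_smul, ← Subgroup.mem_centralizer_iff.mp hs' t ht, mul_smul, hsα]
  have heq : k • t • α = t • α := by
    obtain ⟨m, hm, hmx⟩ := htrans (t • α) (mem_orbit_self _) _ hβ'
    obtain ⟨r, hr, hrα, s, hs', hsα, rfl⟩ := hdec m hm
    rw [mul_smul, hfix2 s hs' hsα] at hmx
    -- r • t • α = k • t • α , and `r` fixes the latter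
    have h1 : r⁻¹ • (k • t • α) = k • t • α := by
      rw [inv_smul_eq_iff, hfix1 r hr hrα]
    rw [← h1, ← hmx, inv_smul_smul]
  -- `R` fixes `β`
  have hnt := nontrivial_suborbit hprim (hH α) hβ
  obtain ⟨⟨y, hy⟩, hyne⟩ := exists_ne (⟨t • α, mem_orbit_self _⟩ : orbit (stabilizer G α) (t • α))
  apply hyne
  apply Subtype.ext
  obtain ⟨m, hm, hmx⟩ := htrans (t • α) (mem_orbit_self _) y hy
  obtain ⟨r, hr, hrα, s, hs', hsα, rfl⟩ := hdec m hm
  rw [mul_smul, hfix2 s hs' hsα, ← heq, hfix1 r hr hrα, heq] at hmx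
  exact hmx.symm

/-- Case C: `T` semiregular but `N` not regular -/
theorem caseC [Finite G] [Finite Ω] [FaithfulSMul G Ω] (hprim : IsPreprimitive G Ω)
    (hH : ∀ α : Ω, stabilizer G α ≠ ⊥) (hep : IsEP G Ω) {N T : Subgroup G} (hN : N.Normal)
    (h : IsMinComp N T) [IsPretransitive N Ω] (hTN : T ≠ N)
    (hsr : ∀ x ∈ T, ∀ ω : Ω, x • ω = ω → x = 1) {y : G} (hy : y ∈ N) (hy1 : y ≠ 1)
    {α : Ω} (hyα : y • α = α) : False := by
  haveI := hprim
  haveI : Nonempty Ω := ⟨α⟩
  set D : Subgroup G := N ⊓ stabilizer G α with hD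
  have hDle : D ≤ stabilizer G α := inf_le_right
  have hDn : stabilizer G α ≤ Subgroup.normalizer (D : Set G) := by
    intro g hg
    have hg' : g • α = α := hg
    rw [Subgroup.mem_normalizer_iff]
    intro z
    constructor
    · rintro ⟨hz1, hz2⟩
      have hz2' : z • α = α := hz2
      refine ⟨hN.conj_mem z hz1 g, ?_⟩
      change (g * z * g⁻¹) • α = α
      rw [mul_smul, mul_smul, inv_smul_eq_iff.mpr hg'.symm, hz2', hg']
    · rintro ⟨hz1, hz2⟩
      have hz2' : (g * z * g⁻¹) • α = α := hz2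
      have h1 : z = g⁻¹ * (g * z * g⁻¹) * g⁻¹⁻¹ := by group
      refine ⟨?_, ?_⟩
      · rw [h1]
        exact hN.conj_mem _ hz1 g⁻¹
      · change z • α = α
        rw [h1, mul_smul, mul_smul, inv_inv, hg', hz2', inv_smul_eq_iff, hg']
  have hD1 : D ≠ ⊥ := by
    intro h'
    have : y ∈ D := ⟨hy, hyα⟩
    rw [h', Subgroup.mem_bot] at this
    exact hy1 this
  -- `Tα` is stable under `G_α`
  have hstable : ∀ g : G, g • α = α → ∀ x ∈ orbit T α, g • x ∈ orbit T α := by
    rintro g hg x ⟨⟨t, ht⟩, rfl⟩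
    change g • t • α ∈ orbit T α
    by_cases ht1 : t = 1
    · rw [ht1, one_smul, hg]
      exact mem_orbit_self α
    · have hβ : α ≠ t • α := fun h' => ht1 (hsr t ht α h'.symm)
      obtain ⟨d, hd, hdx⟩ := transitive_on_suborbit hprim hH hep hβ D hDle hDn hD1 (t • α)
        (mem_orbit_self _) (g • t • α) ⟨⟨g, hg⟩, rfl⟩
      rw [← hdx]
      have hdα : d • α = α := hd.2
      refine ⟨⟨d * t * d⁻¹, ?_⟩, ?_⟩
      · rw [← h.norm d hd.1]
        exact conj_mem_conj_smul ht
      · change (d * t * d⁻¹) • α = d • t • α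
        rw [mul_smul, mul_smul, inv_smul_eq_iff.mpr hdα.symm]
  obtain ⟨t0, ht0, ht0d⟩ := h.exists_derangement (Ω := Ω)
  haveI hnt : Nontrivial Ω := ⟨⟨t0 • α, α, ht0d α⟩⟩
  let S : Subgroup G :=
    { carrier := {g | ∀ x : Ω, g • x ∈ orbit T α ↔ x ∈ orbit T α}
      mul_mem' := by
        intro a b ha hb x
        rw [mul_smul, ha, hb]
      one_mem' := fun x => by rw [one_smul]
      inv_mem' := by
        intro a ha x
        rw [← ha (a⁻¹ • x), smul_inv_smul] }
  have hSα : stabilizer G α ≤ S := by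
    intro g hg x
    refine ⟨fun h' => ?_, hstable g hg x⟩
    have := hstable g⁻¹ (by rw [inv_smul_eq_iff]; exact (hg : g • α = α).symm) _ h'
    rwa [inv_smul_smul] at this
  have hST : T ≤ S := by
    intro t ht x
    constructor
    · rintro ⟨s, hs⟩
      refine ⟨⟨t, ht⟩⁻¹ * s, ?_⟩
      change ((⟨t, ht⟩ : T)⁻¹ * s) • α = x
      rw [mul_smul, inv_smul_eq_iff]
      exact hs
    · rintro ⟨s, rfl⟩
      exact ⟨⟨t, ht⟩ * s, mul_smul _ _ _⟩
  have hco : IsCoatom (stabilizer G α) := hprim.isCoatom_stabilizer_of_isPreprimitive G α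
  have hStop : S = ⊤ := by
    rcases hco.le_iff.mp hSα with h' | h'
    · exact h'
    · exfalso
      have : t0 ∈ stabilizer G α := h' ▸ hST ht0
      exact ht0d α this
  have hTtr : IsPretransitive T Ω := by
    rw [isPretransitive_iff_base α]
    intro x
    obtain ⟨g, hg⟩ := MulAction.exists_smul_eq G α x
    have h1 : g ∈ S := by rw [hStop]; exact Subgroup.mem_top g
    have h2 := (h1 α).mpr (mem_orbit_self α)
    rw [hg] at h2
    exact h2
  obtain ⟨g0, hg0, hg0c⟩ := h.exists_conj_ne hTN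
  have hCtr : IsPretransitive (Subgroup.centralizer (T : Set G)) Ω := by
    constructor
    intro x z
    obtain ⟨⟨t, ht⟩, htx⟩ := MulAction.exists_smul_eq T (g0⁻¹ • x) (g0⁻¹ • z)
    have htx' : t • g0⁻¹ • x = g0⁻¹ • z := htx
    refine ⟨⟨g0 * t * g0⁻¹, hg0c (conj_mem_conj_smul ht)⟩, ?_⟩
    change (g0 * t * g0⁻¹) • x = z
    rw [mul_smul, mul_smul, htx', smul_inv_smul]
  exact false_of_regular_pair T h.simple h.noncomm α (fun t ht => hsr t ht α) hCtr
    h.conj_eq_or_comm (fun β hβ => isCoatom_two_point hprim hep (hH α) hβ)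

end Cfsg.Agent.ExtPrim
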