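import Cfsg.Agent.ExtPrim.ONan

set_option autoImplicit false
set_option linter.style.haveILetI false

/-!
Extremely primitive groups are affine or almost simple (S3493), case of a regular nonabelian
minimal normal subgroup. Owner: helper58.
-/

namespace Cfsg.Agent.ExtPrim

open MulAction Cfsg.Agent.H59
open scoped Pointwise

variable {G Ω : Type*} [Group G] [MulAction G Ω]

/-- A simple group is generated by its elements of order `p`. -/
theorem commute_of_order (T : Subgroup G) (hT : IsSimpleGroup T) [Finite G] {p : ℕ}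
    [hp : Fact p.Prime] (hpT : p ∣ Nat.card T) (h : G)
    (hh : ∀ x ∈ T, orderOf x = p → h * x = x * h) : ∀ x ∈ T, h * x = x * h := by
  set L : Subgroup T := Subgroup.normalClosure {x : T | orderOf x = p} with hL
  have hLn : L.Normal := inferInstance
  obtain ⟨x, hx⟩ := exists_prime_orderOf_dvd_card' p hpT
  have hLtop : L = ⊤ := by
    rcases hLn.eq_bot_or_eq_top with h1 | h1
    · exfalso
      have : x ∈ L := Subgroup.subset_normalClosure hx
      rw [h1, Subgroup.mem_bot] at this
      rw [this, orderOf_one] at hx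
      exact hp.out.one_lt.ne hx
    · exact h1
  have key : ∀ y ∈ L, h * (y : G) = y * h := by
    intro y hy
    rw [hL, Subgroup.normalClosure] at hy
    induction hy using Subgroup.closure_induction with
    | mem z hz =>
      rw [Group.mem_conjugatesOfSet_iff] at hz
      obtain ⟨w, hw, hwz⟩ := hz
      obtain ⟨c, hc⟩ := isConj_iff.mp hwz
      apply hh z z.2
      rw [Subgroup.orderOf_coe, ← hc, ← MulAut.conj_apply, MulEquiv.orderOf_eq]
      exact hw
    | one => simp
    | mul a b _ _ ha hb =>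
      rw [Subgroup.coe_mul, ← mul_assoc, ha, mul_assoc, hb, mul_assoc]
    | inv a _ ha =>
      rw [Subgroup.coe_inv]
      exact (Commute.inv_right ha : Commute h (a : G)⁻¹)
  intro y hy
  exact key ⟨y, hy⟩ (by rw [hLtop]; exact Subgroup.mem_top _)

/-- Case B: `N` regular -/
theorem caseB [Finite G] [Finite Ω] [FaithfulSMul G Ω] (hprim : IsPreprimitive G Ω)
    (hH : ∀ α : Ω, stabilizer G α ≠ ⊥) (hep : IsEP G Ω) {N T : Subgroup G} (hN : N.Normal)
    (h : IsMinComp N T) [IsPretransitive N Ω] (hTN : T ≠ N) (α : Ω)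
    (hreg : ∀ x ∈ N, x • α = α → x = 1) : False := by
  classical
  haveI := hprim
  haveI : Nonempty Ω := ⟨α⟩
  obtain ⟨t0, ht0, ht0d⟩ := h.exists_derangement (Ω := Ω)
  haveI hnt : Nontrivial Ω := ⟨⟨t0 • α, α, ht0d α⟩⟩
  -- the subgroups `K n = C_{G_α}(n)`
  let K : G → Subgroup (stabilizer G α) := fun n => stabilizer (stabilizer G α) (n • α)
  have hK : ∀ n ∈ N, ∀ g : stabilizer G α, g ∈ K n ↔ (g : G) * n = n * g := by
    intro n hn g
    have hg : (g : G) • α = α := g.2
    change (g : G) • n • α = n • α ↔ _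
    constructor
    · intro h1
      have h2 : n⁻¹ * ((g : G) * n * (g : G)⁻¹) ∈ N := N.mul_mem (N.inv_mem hn) (hN.conj_mem n hn g)
      have h3 := hreg _ h2 (by
        rw [mul_smul, mul_smul, inv_smul_eq_iff.mpr hg.symm, mul_smul, h1, inv_smul_smul])
      rw [inv_mul_eq_one] at h3
      rw [eq_comm, mul_inv_eq_iff_eq_mul] at h3
      exact h3
    · intro h1
      rw [← mul_smul, h1, mul_smul, hg]
  have hcoat : ∀ n ∈ N, n ≠ 1 → IsCoatom (K n) := fun n hn hn1 =>
    isCoatom_two_point hprim hep (hH α) (fun h' => hn1 (hreg n hn h'.symm))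
  have hKpow : ∀ n ∈ N, ∀ m : ℕ, n ^ m ≠ 1 → K n = K (n ^ m) := by
    intro n hn m hm
    have hn1 : n ≠ 1 := by rintro rfl; exact hm (one_pow m)
    have hle : K n ≤ K (n ^ m) := by
      intro g hg
      rw [hK n hn] at hg
      rw [hK _ (N.pow_mem hn m)]
      exact (show Commute (g : G) n from hg).pow_right m
    rcases (hcoat n hn hn1).le_iff.mp hle with h4 | h4
    · exact absurd h4 (hcoat _ (N.pow_mem hn m) hm).1
    · exact h4.symm
  have hKcop : ∀ x ∈ N, ∀ y ∈ N, x ≠ 1 → y ≠ 1 → x * y = y * x →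
      (orderOf x).Coprime (orderOf y) → K x = K y := by
    intro x hx y hy hx1 hy1 hxy hc
    obtain ⟨n, hn⟩ := exists_pow_eq_of_coprime hxy hc
    obtain ⟨m, hm⟩ := exists_pow_eq_of_coprime hxy.symm hc.symm
    have h1 := hKpow (x * y) (N.mul_mem hx hy) n (by rw [hn]; exact hx1)
    have h2 := hKpow (x * y) (N.mul_mem hx hy) m (by rw [hxy, hm]; exact hy1)
    rw [← hn, ← h1, h2, hxy, hm]
  -- two primes
  have hcard : Nat.card T ≠ 1 := by
    intro h'
    have := (Nat.card_eq_one_iff_unique.mp h').1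
    haveI := h.simple
    obtain ⟨x, y, hxy⟩ := exists_pair_ne T
    exact hxy (Subsingleton.elim _ _)
  obtain ⟨p, hp, hpd⟩ := Nat.exists_prime_and_dvd hcard
  haveI : Fact p.Prime := ⟨hp⟩
  have h2 : ∃ q : ℕ, q.Prime ∧ q ≠ p ∧ q ∣ Nat.card T := by
    by_contra hcon
    push Not at hcon
    apply not_isPGroup_of_simple h.simple h.noncomm p
    rw [IsPGroup.iff_card]
    exact ⟨_, Nat.eq_prime_pow_of_unique_prime_dvd Nat.card_pos.ne' (fun {q} hq hqd => by
      by_contra hne
      exact hcon q hq hne hqd)⟩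
  obtain ⟨q, hq, hqp, hqd⟩ := h2
  haveI : Fact q.Prime := ⟨hq⟩
  have hcopq : Nat.Coprime p q := (Nat.coprime_primes hp hq).mpr hqp.symm
  have hne1 : ∀ {z : G} {r : ℕ}, r.Prime → orderOf z = r → z ≠ 1 := by
    rintro z r hr hz rfl
    rw [orderOf_one] at hz
    exact hr.one_lt.ne hz
  obtain ⟨⟨x0, hx0⟩, hx0o⟩ := exists_prime_orderOf_dvd_card' p hpd
  rw [← Subgroup.orderOf_coe] at hx0o
  change orderOf x0 = p at hx0o
  obtain ⟨⟨y0, hy0⟩, hy0o⟩ := exists_prime_orderOf_dvd_card' q hqd
  rw [← Subgroup.orderOf_coe] at hy0o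
  change orderOf y0 = q at hy0o
  obtain ⟨g0, hg0, hg0c⟩ := h.exists_conj_ne hTN
  have hconjN : ∀ (c : G), ∀ y ∈ MulAut.conj c • T, y ∈ N := by
    intro c y hy
    rw [mem_conj_smul] at hy
    have := hN.conj_mem _ (h.le hy) c
    have h3 : c * (c⁻¹ * y * c) * c⁻¹ = y := by group
    rwa [h3] at this
  have horder : ∀ (c z : G), orderOf (c * z * c⁻¹) = orderOf z := by
    intro c z
    rw [← MulAut.conj_apply, MulEquiv.orderOf_eq]
  have hxN : x0 ∈ N := h.le hx0
  have hx01 : x0 ≠ 1 := hne1 hp hx0o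
  -- all elements of order `q` in a conjugate commuting with `T`
  have hKq : ∀ c : G, (∀ x ∈ T, ∀ y ∈ MulAut.conj c • T, x * y = y * x) →
      ∀ x ∈ T, orderOf x = p → ∀ y ∈ MulAut.conj c • T, orderOf y = q → K x = K y := by
    intro c hc x hx hxo y hy hyo
    exact hKcop x (h.le hx) y (hconjN c y hy) (hne1 hp hxo) (hne1 hq hyo) (hc x hx y hy)
      (by rw [hxo, hyo]; exact hcopq)
  have hg0c' : ∀ x ∈ T, ∀ y ∈ MulAut.conj g0 • T, x * y = y * x := fun x hx y hy =>
    Subgroup.mem_centralizer_iff.mp (hg0c hy) x hx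
  have hy1 : g0 * y0 * g0⁻¹ ∈ MulAut.conj g0 • T := conj_mem_conj_smul hy0
  have hy1o : orderOf (g0 * y0 * g0⁻¹) = q := by rw [horder, hy0o]
  have hK0 : ∀ x ∈ T, orderOf x = p → K x = K x0 := by
    intro x hx hxo
    rw [hKq g0 hg0c' x hx hxo _ hy1 hy1o, hKq g0 hg0c' x0 hx0 hx0o _ hy1 hy1o]
  -- `K x0` centralizes every conjugate of `T`
  have hcen : ∀ g ∈ K x0, ∀ c : G, ∀ y ∈ MulAut.conj c • T, (g : G) * y = y * g := by
    intro g hg c y hy
    rcases h.conj_eq_or_comm c with hc | hc
    · rw [hc] at hy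
      apply commute_of_order T h.simple hpd (g : G) _ y hy
      intro x hx hxo
      rw [← hK x (h.le hx), hK0 x hx hxo]
      exact hg
    · rw [mem_conj_smul] at hy
      have h5 := commute_of_order T h.simple hqd (c⁻¹ * g * c) (by
        intro x hx hxo
        have h6 : c * x * c⁻¹ ∈ MulAut.conj c • T := conj_mem_conj_smul hx
        have h7 : g ∈ K (c * x * c⁻¹) := by
          rw [← hKq c hc x0 hx0 hx0o _ h6 (by rw [horder, hxo])]
          exact hg
        rw [hK _ (hconjN c _ h6)] at h7
        calc c⁻¹ * (g : G) * c * x = c⁻¹ * ((g : G) * (c * x * c⁻¹)) * c := by group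
          _ = c⁻¹ * ((c * x * c⁻¹) * g) * c := by rw [h7]
          _ = x * (c⁻¹ * g * c) := by group) _ hy
      calc (g : G) * y = c * ((c⁻¹ * (g : G) * c) * (c⁻¹ * y * c)) * c⁻¹ := by group
        _ = c * ((c⁻¹ * y * c) * (c⁻¹ * (g : G) * c)) * c⁻¹ := by rw [h5]
        _ = y * g := by group
  have hcenN : ∀ g ∈ K x0, ∀ y ∈ N, y * (g : G) = g * y := by
    intro g hg
    have hle : N ≤ Subgroup.centralizer ({(g : G)} : Set G) := by
      rw [← h.iSup_eq]
      apply iSup_le
      intro c y hy
      rw [Subgroup.mem_centralizer_singleton_iff]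
      exact (hcen g hg c y hy).symm
    intro y hy
    exact Subgroup.mem_centralizer_singleton_iff.mp (hle hy)
  have hKbot : K x0 = ⊥ := by
    rw [eq_bot_iff]
    intro g hg
    rw [Subgroup.mem_bot]
    apply Subtype.ext
    exact eq_one_of_commute_transitive N (g : G) (hcenN g hg) α g.2
  have hprime : (Nat.card (stabilizer G α)).Prime := by
    apply card_prime_of_isCoatom_bot
    rw [← hKbot]
    exact hcoat x0 hxN hx01
  -- the generator
  obtain ⟨r, hr⟩ : ∃ r, r = Nat.card (stabilizer G α) := ⟨_, rfl⟩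
  rw [← hr] at hprime
  haveI : Fact r.Prime := ⟨hprime⟩
  haveI : Nontrivial (stabilizer G α) := (Subgroup.nontrivial_iff_ne_bot _).mpr (hH α)
  obtain ⟨k, hk1⟩ := exists_ne (1 : stabilizer G α)
  have hko : orderOf k = r := by
    have h3 : orderOf k ∣ r := by rw [hr]; exact orderOf_dvd_natCard k
    rcases (Nat.dvd_prime hprime).mp h3 with h4 | h4
    · exact absurd (orderOf_eq_one_iff.mp h4) hk1
    · exact h4
  have hkr : (k : G) ^ r = 1 := by
    have := pow_orderOf_eq_one k
    rw [hko] at this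
    exact congrArg Subtype.val this
  have hmove : ∀ j : ℕ, 0 < j → j < r → ∀ x ∈ T, ∀ y ∈ MulAut.conj ((k : G) ^ j) • T,
      x * y = y * x := by
    intro j hj0 hjr
    rcases h.conj_eq_or_comm ((k : G) ^ j) with hc | hc
    · exfalso
      have hkj : k ^ j ≠ 1 := by
        intro h'
        have := orderOf_dvd_of_pow_eq_one h'
        rw [hko] at this
        exact absurd (Nat.le_of_dvd hj0 this) (by omega)
      let S : Subgroup G :=
        { carrier := {g | MulAut.conj g • T = T}
          mul_mem' := by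
            intro a b ha hb
            change MulAut.conj (a * b) • T = T
            rw [conj_smul_mul, (hb : MulAut.conj b • T = T), (ha : MulAut.conj a • T = T)]
          one_mem' := by
            change MulAut.conj 1 • T = T
            rw [map_one, one_smul]
          inv_mem' := by
            intro a ha
            change MulAut.conj a⁻¹ • T = T
            rw [map_inv, inv_smul_eq_iff]
            exact (ha : MulAut.conj a • T = T).symm }
      have hSα : stabilizer G α ≤ S := by
        intro g hg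
        have h3 := mem_zpowers_of_prime_card hr.symm hkj (g' := (⟨g, hg⟩ : stabilizer G α))
        obtain ⟨i, hi⟩ := Subgroup.mem_zpowers_iff.mp h3
        have hi' : ((k : G) ^ j) ^ i = g := by
          have := congrArg Subtype.val hi
          rwa [Subgroup.coe_zpow, Subgroup.coe_pow] at this
        rw [← hi']
        exact S.zpow_mem hc i
      have hSN : N ≤ S := fun n hn => h.norm n hn
      have hco : IsCoatom (stabilizer G α) := hprim.isCoatom_stabilizer_of_isPreprimitive G α
      rcases hco.le_iff.mp hSα with h' | h'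
      · have : g0 ∈ S := by rw [h']; exact Subgroup.mem_top g0
        exact hg0 this
      · have : t0 ∈ stabilizer G α := h' ▸ hSN (h.le ht0)
        exact ht0d α this
    · exact hc
  -- the product
  have hprod : ∀ j : ℕ, j + 1 ≤ r → ∃ c ∈ Subgroup.centralizer (T : Set G), c ∈ N ∧
      (x0 * (k : G)) ^ (j + 1) = x0 * c * (k : G) ^ (j + 1) := by
    intro j
    induction j with
    | zero =>
      intro _
      exact ⟨1, Subgroup.one_mem _, N.one_mem, by simp⟩
    | succ j ih =>
      intro hj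
      obtain ⟨c, hc, hcN, hcj⟩ := ih (by omega)
      have h3 := hmove (j + 1) (by omega) (by omega)
      have h4 : (k : G) ^ (j + 1) * x0 * ((k : G) ^ (j + 1))⁻¹ ∈ MulAut.conj ((k : G) ^ (j + 1)) • T :=
        conj_mem_conj_smul hx0
      refine ⟨c * ((k : G) ^ (j + 1) * x0 * ((k : G) ^ (j + 1))⁻¹), ?_, ?_, ?_⟩
      · apply Subgroup.mul_mem _ hc
        rw [Subgroup.mem_centralizer_iff]
        intro x hx
        exact h3 x hx _ h4
      · exact N.mul_mem hcN (hN.conj_mem _ hxN _)
      · rw [pow_succ, hcj, pow_succ (k : G) (j + 1)]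
        group
  have hr1 : r - 1 + 1 = r := Nat.sub_add_cancel hprime.one_lt.le
  obtain ⟨c, hc, hcN, hcr⟩ := hprod (r - 1) (by omega)
  rw [hr1, hkr, mul_one] at hcr
  have hu1 : x0 * c ≠ 1 := by
    intro h'
    have h3 : x0 = c⁻¹ := eq_inv_of_mul_eq_one_left h'
    have h4 : x0 ∈ T ⊓ Subgroup.centralizer (T : Set G) :=
      ⟨hx0, by rw [h3]; exact Subgroup.inv_mem _ hc⟩
    rw [inf_centralizer_of_simple h.simple h.noncomm, Subgroup.mem_bot] at h4
    exact hx01 h4
  have hux : (x0 * c) * x0 = x0 * (x0 * c) := by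
    rw [mul_assoc, ← Subgroup.mem_centralizer_iff.mp hc x0 hx0]
  have huxk : (x0 * c) * (x0 * (k : G)) = (x0 * (k : G)) * (x0 * c) := by
    rw [← hcr]
    exact (Commute.refl _).pow_left r
  have huk : (k : G) * (x0 * c) = (x0 * c) * k := by
    have h3 : x0 * ((k : G) * (x0 * c)) = x0 * ((x0 * c) * k) := by
      calc x0 * ((k : G) * (x0 * c)) = (x0 * (k : G)) * (x0 * c) := by group
        _ = (x0 * c) * (x0 * (k : G)) := huxk.symm
        _ = ((x0 * c) * x0) * k := by group
        _ = (x0 * (x0 * c)) * k := by rw [hux]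
        _ = x0 * ((x0 * c) * k) := by group
    exact mul_left_cancel h3
  have hkK : k ∈ K (x0 * c) := by
    rw [hK _ (N.mul_mem hxN hcN)]
    exact huk
  apply (hcoat (x0 * c) (N.mul_mem hxN hcN) hu1).1
  rw [eq_top_iff]
  intro g _
  have h3 := mem_zpowers_of_prime_card hr.symm hk1 (g' := g)
  exact (Subgroup.zpowers_le.mpr hkK) h3

/-- The main theorem. -/
theorem affine_or_almostSimple [Finite G] [Finite Ω] [FaithfulSMul G Ω] [Nontrivial Ω]
    (hprim : IsPreprimitive G Ω) (hep : IsEP G Ω) :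
    (∃ N : Subgroup G, N.Normal ∧ N ≠ ⊥ ∧ IsMulCommutative N ∧ ∀ ω : Ω, stabilizer N ω = ⊥) ∨
    (∃ T : Subgroup G, T.Normal ∧ IsSimpleGroup T ∧ ¬ IsMulCommutative T ∧
      Subgroup.centralizer (T : Set G) = ⊥) := by
  classical
  haveI := hprim
  obtain ⟨α, β, hαβ⟩ := exists_pair_ne Ω
  haveI : Nonempty Ω := ⟨α⟩
  have hGtop : (⊤ : Subgroup G) ≠ ⊥ := by
    intro h
    obtain ⟨g, hg⟩ := MulAction.exists_smul_eq G α β
    have : g ∈ (⊤ : Subgroup G) := Subgroup.mem_top g
    rw [h, Subgroup.mem_bot] at this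
    rw [this, one_smul] at hg
    exact hαβ hg
  by_cases hH0 : stabilizer G α = ⊥
  · -- regular case
    left
    have hco : IsCoatom (stabilizer G α) := hprim.isCoatom_stabilizer_of_isPreprimitive G α
    rw [hH0] at hco
    have hp := card_prime_of_isCoatom_bot hco
    haveI : Fact (Nat.card G).Prime := ⟨hp⟩
    haveI : IsCyclic G := isCyclic_of_prime_card rfl
    have hmc : ∀ x y : G, x * y = y * x := fun x y => (IsCyclic.isMulCommutative (α := G)).is_comm.comm x y
    refine ⟨⊤, inferInstance, hGtop, ⟨⟨fun x y => ?_⟩⟩, fun ω => ?_⟩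
    · apply Subtype.ext
      exact hmc x.1 y.1
    · rw [Subgroup.eq_bot_iff_forall]
      rintro ⟨x, hx⟩ hxω
      apply Subtype.ext
      obtain ⟨g, hg⟩ := MulAction.exists_smul_eq G ω α
      have h1 : x ∈ stabilizer G α := by
        rw [mem_stabilizer_iff, ← hg, ← mul_smul, hmc x g, mul_smul]
        congr 1
      rw [hH0, Subgroup.mem_bot] at h1
      exact h1
  · have hH := stabilizer_ne_bot_all hH0
    obtain ⟨N, hN, -, hN1, hmin⟩ :=
      Cfsg.Agent.Solv.exists_minimal_normal (⊤ : Subgroup G) inferInstance hGtop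
    haveI := hN
    haveI hNtr : IsPretransitive N Ω := transitive_of_normal hprim N hN hN1
    by_cases hNab : IsMulCommutative N
    · left
      exact ⟨N, hN, hN1, hNab, fun ω => stabilizer_eq_bot_of_abelian N hNab ω⟩
    · right
      obtain ⟨T, hT⟩ := exists_minComp N hN1 hmin hNab
      by_cases hTN : T = N
      · refine ⟨T, hTN ▸ hN, hT.simple, hT.noncomm, ?_⟩
        by_contra hC
        haveI : T.Normal := hTN ▸ hN
        haveI hTtr : IsPretransitive T Ω := by rw [hTN]; exact hNtr
        haveI hCtr : IsPretransitive (Subgroup.centralizer (T : Set G)) Ω :=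
          transitive_of_normal hprim _ inferInstance hC
        exact false_of_regular_pair T hT.simple hT.noncomm α
          (fun t ht htα => eq_one_of_commute_transitive (Subgroup.centralizer (T : Set G)) t
            (fun k hk => (Subgroup.mem_centralizer_iff.mp hk t ht).symm) α htα) hCtr
          hT.conj_eq_or_comm (fun β hβ => isCoatom_two_point hprim hep (hH α) hβ)
      · exfalso
        by_cases hsr : ∀ x ∈ T, ∀ ω : Ω, x • ω = ω → x = 1
        · by_cases hNr : ∀ y ∈ N, ∀ ω : Ω, y • ω = ω → y = 1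
          · exact caseB hprim hH hep hN hT hTN α (fun x hx => hNr x hx α)
          · push Not at hNr
            obtain ⟨y, hy, ω, hyω, hy1⟩ := hNr
            exact caseC hprim hH hep hN hT hTN hsr hy hy1 hyω
        · push Not at hsr
          obtain ⟨x, hx, ω, hxω, hx1⟩ := hsr
          exact caseA hprim hH hep hN hT hTN hx hx1 hxω

end Cfsg.Agent.ExtPrim
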