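import Mathlib

/-!
A maximal subgroup of prime order forces solvability of minimal normal subgroups (S3498).
Owner: helper58.
-/

set_option autoImplicit false

namespace Cfsg.Agent.ExtPrim

variable {G : Type*} [Group G]

/-- two normal subgroups with trivial intersection centralize each other -/
theorem le_centralizer_of_inf_eq_bot {H K : Subgroup G} [hH : H.Normal] [hK : K.Normal]
    (h : H ⊓ K = ⊥) : H ≤ Subgroup.centralizer (K : Set G) := by
  rw [← Subgroup.commutator_eq_bot_iff_le_centralizer, eq_bot_iff, ← h]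
  exact Subgroup.commutator_le_inf H K

/-- a normal subgroup meets a simple normal subgroup trivially or contains it -/
theorem simple_inf_or_le (T : Subgroup G) [T.Normal] (hT : IsSimpleGroup T) (N : Subgroup G)
    [hN : N.Normal] : T ⊓ N = ⊥ ∨ T ≤ N := by
  have h1 : (N.subgroupOf T).Normal := inferInstance
  rcases h1.eq_bot_or_eq_top with h | h
  · left
    rw [Subgroup.subgroupOf_eq_bot] at h
    rw [inf_comm]
    exact h.eq_bot
  · right
    exact Subgroup.subgroupOf_eq_top.1 h

theorem not_prime_card_of_coatom [Finite G] (T : Subgroup G) [T.Normal] (hT : IsSimpleGroup T)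
    (hTc : ¬ IsMulCommutative T) (hC : Subgroup.centralizer (T : Set G) = ⊥) (H : Subgroup G)
    (hmax : IsCoatom H) : ¬ (Nat.card H).Prime := by
  intro hp
  obtain ⟨p, hpH⟩ : ∃ p, p = Nat.card H := ⟨_, rfl⟩
  rw [← hpH] at hp
  have hpf : Fact p.Prime := ⟨hp⟩
  have hH1 : H ≠ ⊥ := by
    intro h
    rw [h, Subgroup.card_bot] at hpH
    exact hp.one_lt.ne' hpH
  have hT1 : T ≠ ⊥ := by
    intro h
    apply hTc
    rw [h]
    exact ⟨⟨fun x y => Subsingleton.elim _ _⟩⟩
  -- normal nontrivial subgroups contain T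
  have hcont : ∀ N : Subgroup G, N.Normal → N ≠ ⊥ → T ≤ N := by
    intro N hN hN1
    rcases simple_inf_or_le T hT N with h | h
    · exfalso
      apply hN1
      rw [eq_bot_iff, ← hC]
      exact le_centralizer_of_inf_eq_bot (by rw [inf_comm]; exact h)
    · exact h
  -- a p-group cannot contain T
  have hnopg : ∀ (q : ℕ) (N : Subgroup G), q.Prime → IsPGroup q N → ¬ T ≤ N := by
    intro q N hq hN hTN
    have : Fact q.Prime := ⟨hq⟩
    have h1 : IsPGroup q T := hN.to_le hTN
    have h2 : Group.IsNilpotent T := h1.isNilpotent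
    apply hTc
    have h3 : CommGroup T := inferInstance
    have h4 : Subgroup.center T ≠ ⊥ := by
      have : Nontrivial T := hT.toNontrivial
      exact Group.IsNilpotent.center_ne_bot T
    have h5 : (Subgroup.center T).Normal := inferInstance
    rcases h5.eq_bot_or_eq_top with h | h
    · exact absurd h h4
    · exact Subgroup.center_eq_top_iff.1 h
  have hHp : IsPGroup p H := IsPGroup.of_card (n := 1) (by rw [← hpH, pow_one])
  -- H is not normal
  have hHn : ¬ H.Normal := fun hn => hnopg p H hp hHp (hcont H hn hH1)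
  have hself : Subgroup.normalizer (H : Set G) = H := by
    rcases hmax.le_iff.1 (Subgroup.le_normalizer (H := H)) with h | h
    · exact absurd (Subgroup.normalizer_eq_top_iff.1 h) hHn
    · exact h
  -- H is a Sylow subgroup
  obtain ⟨P, hP⟩ := hHp.exists_le_sylow
  have hPH : (P : Subgroup G) = H := by
    by_contra hne
    have hlt : H < P := lt_of_le_of_ne hP (Ne.symm hne)
    have hnil : Group.IsNilpotent P := P.isPGroup'.isNilpotent
    have hnc := Group.normalizerCondition_of_isNilpotent (G := P) (H.subgroupOf P) (by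
      rw [lt_top_iff_ne_top]
      intro h
      exact hlt.not_ge (Subgroup.subgroupOf_eq_top.1 h))
    obtain ⟨x, hx, hx'⟩ := SetLike.exists_of_lt hnc
    apply hx'
    have h1 : (x : G) ∈ Subgroup.normalizer (H : Set G) := by
      rw [Subgroup.mem_normalizer_iff] at hx ⊢
      intro y
      constructor
      · intro hy
        exact (hx ⟨y, hP hy⟩).1 hy
      · intro hy
        have h2 : (x : G)⁻¹ * (x * y * (x : G)⁻¹) * x ∈ (P : Subgroup G) :=
          mul_mem (mul_mem (inv_mem x.2) (hP hy)) x.2
        have h3 : (x : G)⁻¹ * (x * y * (x : G)⁻¹) * x = y := by group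
        rw [h3] at h2
        exact (hx ⟨y, h2⟩).2 hy
    rw [hself] at h1
    exact h1
  have hPcard : Nat.card P = p := by
    have : Nat.card P = Nat.card H := by rw [← hPH]
    rw [this, hpH]
  have hcommP : ∀ x ∈ P, ∀ y ∈ P, x * y = y * x := by
    have hcyc : IsCyclic P := isCyclic_of_prime_card hPcard
    intro x hx y hy
    exact congrArg Subtype.val ((IsCyclic.commGroup (α := P)).mul_comm ⟨x, hx⟩ ⟨y, hy⟩)
  have hNC : Subgroup.normalizer (P : Set G) ≤ Subgroup.centralizer (P : Set G) := by
    intro x hx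
    have hx' : x ∈ (P : Subgroup G) := by
      have h1 : Subgroup.normalizer ((P : Subgroup G) : Set G) = P := by rw [hPH, hself]
      have h2 : x ∈ Subgroup.normalizer ((P : Subgroup G) : Set G) := hx
      rwa [h1] at h2
    rw [Subgroup.mem_centralizer_iff]
    intro y hy
    exact hcommP y hy x hx'
  set K := (MonoidHom.transferSylow P hNC).ker with hK
  have hcomp := MonoidHom.ker_transferSylow_isComplement' P hNC
  have hKidx : K.index = p := by
    rw [hcomp.symm.index_eq_card]
    exact hPcard
  have hpK : ¬ p ∣ Nat.card K := MonoidHom.not_dvd_card_ker_transferSylow P hNC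
  have hK1 : K ≠ ⊥ := by
    intro h
    have h1 := K.card_mul_index
    rw [hKidx, h, Subgroup.card_bot, one_mul] at h1
    have h2 : H = ⊤ := by
      apply Subgroup.eq_top_of_card_eq
      rw [← hpH, h1]
    exact hmax.1 h2
  have hTK : T ≤ K := hcont K inferInstance hK1
  -- a prime divisor r of |K|
  obtain ⟨r, hr, hrK⟩ := Nat.exists_prime_and_dvd (n := Nat.card K) (by
    intro h
    exact hK1 (Subgroup.card_eq_one.1 h))
  have hrf : Fact r.Prime := ⟨hr⟩
  have hrp : r ≠ p := by
    rintro rfl
    exact hpK hrK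
  obtain ⟨R⟩ : Nonempty (Sylow r G) := inferInstance
  have hR1 : (R : Subgroup G) ≠ ⊥ := by
    apply R.ne_bot_of_dvd_card
    exact dvd_trans hrK (Subgroup.card_subgroup_dvd_card K)
  have hRK : (R : Subgroup G) ≤ K := by
    intro x hx
    have h1 : ((x : G) : G ⧸ K) = 1 := by
      have h2 : orderOf ((x : G) : G ⧸ K) ∣ p := by
        have := orderOf_dvd_natCard ((x : G) : G ⧸ K)
        have h3 : Nat.card (G ⧸ K) = p := hKidx
        rwa [h3] at this
      obtain ⟨k, hk⟩ := R.isPGroup' ⟨x, hx⟩
      have hk' : x ^ (r ^ k) = 1 := congrArg Subtype.val hk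
      have h3 : orderOf ((x : G) : G ⧸ K) ∣ r ^ k := by
        apply orderOf_dvd_of_pow_eq_one
        rw [← QuotientGroup.mk_pow, hk']; rfl
      have h4 : Nat.Coprime p (r ^ k) :=
        Nat.Coprime.pow_right k ((Nat.coprime_primes hp hr).2 (Ne.symm hrp))
      have h5 := Nat.dvd_gcd h2 h3
      rw [h4] at h5
      exact orderOf_eq_one_iff.1 (Nat.dvd_one.1 h5)
    exact (QuotientGroup.eq_one_iff x).1 h1
  have hfr := Sylow.normalizer_sup_eq_top' R hRK
  set N := Subgroup.normalizer (R : Set G) with hN
  have hNtop : N ≠ ⊤ := by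
    intro h
    have h1 : (R : Subgroup G).Normal := Subgroup.normalizer_eq_top_iff.1 h
    exact hnopg r R hr R.isPGroup' (hcont R h1 hR1)
  have hpN : p ∣ Nat.card N := by
    have h1 : K.relIndex N = p := by
      have h2 : K.relIndex (N ⊔ K) = K.relIndex N := Subgroup.relIndex_sup_right N K
      rw [← h2, hfr, Subgroup.relIndex_top_right, hKidx]
    rw [← h1]
    exact Subgroup.relIndex_dvd_card K N
  obtain ⟨⟨x, hxN⟩, hx⟩ := exists_prime_orderOf_dvd_card' p hpN
  have hxo : orderOf x = p := by rw [← hx, Subgroup.orderOf_mk]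
  have hQp : IsPGroup p (Subgroup.zpowers x) :=
    IsPGroup.of_card (n := 1) (by rw [Nat.card_zpowers, hxo, pow_one])
  obtain ⟨Q, hQ⟩ := hQp.exists_le_sylow
  obtain ⟨g, hg⟩ := MulAction.exists_smul_eq G P Q
  have hQcard : Nat.card Q = p := by
    exact (Nat.card_congr (Q.equiv P).toEquiv).trans hPcard
  have hQeq : Subgroup.zpowers x = Q := Subgroup.eq_of_le_of_card_ge hQ (by
    rw [Nat.card_zpowers, hxo]
    exact hQcard.le)
  have hQco : IsCoatom (Q : Subgroup G) := by
    have h1 : (Q : Subgroup G) = (MulAut.conj g).mapSubgroup H := by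
      rw [← hg, ← hPH]; rfl
    rw [h1]
    exact ((MulAut.conj g).mapSubgroup.isCoatom_iff H).2 hmax
  have hQN : (Q : Subgroup G) ≤ N := by
    rw [← hQeq, Subgroup.zpowers_le]; exact hxN
  have hNQ : N = Q := by
    rcases hQco.le_iff.1 hQN with h | h
    · exact absurd h hNtop
    · exact h
  have hRQ : (R : Subgroup G) ≤ Q := by rw [← hNQ]; exact Subgroup.le_normalizer
  apply hR1
  have h1 := IsPGroup.disjoint_of_ne r p hrp (R : Subgroup G) (Q : Subgroup G) R.isPGroup'
    Q.isPGroup'
  exact disjoint_self.1 (h1.mono_right hRQ)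

end Cfsg.Agent.ExtPrim
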