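import Mathlib

set_option autoImplicit false

/-! Index of a subgroup in its product with a normal subgroup. Owner: helper58. -/

namespace Cfsg.Agent.ExtPrim

theorem relIndex_sup_normal {G : Type*} [Group G] [Finite G] (K S : Subgroup G) [K.Normal] :
    S.relIndex (K ⊔ S) = S.relIndex K := by
  have h1 := Subgroup.relIndex_mul_relIndex (K ⊓ S) S (K ⊔ S) inf_le_right le_sup_right
  have h2 := Subgroup.relIndex_mul_relIndex (K ⊓ S) K (K ⊔ S) inf_le_left le_sup_left
  rw [Subgroup.relIndex_sup_left, Subgroup.inf_relIndex_left] at h2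
  rw [Subgroup.inf_relIndex_right] at h1
  have h3 : 0 < K.relIndex S :=
    Nat.pos_of_ne_zero (Subgroup.index_ne_zero_of_finite (H := K.subgroupOf S))
  apply Nat.eq_of_mul_eq_mul_left h3
  rw [h1, ← h2, mul_comm]

end Cfsg.Agent.ExtPrim
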