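import Mathlib

set_option autoImplicit false
set_option linter.style.haveILetI false

/-!
A group acting by automorphisms and anti-automorphisms on a non-abelian finite simple group `T`,
containing the inner automorphisms, cannot have all stabilizers `A_t` (`t ≠ 1`) maximal.
Owner: helper58.
-/

namespace Cfsg.Agent.ExtPrim

open MulAction

/-- Burnside: in a non-abelian finite simple group no nontrivial Sylow subgroup is central in its
normalizer. -/
theorem burnside_simple {T : Type*} [Group T] [Finite T] (hT : IsSimpleGroup T)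
    (hTc : ¬ IsMulCommutative T) {p : ℕ} [Fact p.Prime] (P : Sylow p T) (hP1 : (P : Subgroup T) ≠ ⊥)
    (h : Subgroup.normalizer ((P : Subgroup T) : Set T) ≤
      Subgroup.centralizer ((P : Subgroup T) : Set T)) : False := by
  have h1 := MonoidHom.ker_transferSylow_isComplement' P h
  have hn : (MonoidHom.transferSylow P h).ker.Normal := inferInstance
  rcases hn.eq_bot_or_eq_top with h2 | h2
  · rw [h2] at h1
    have h3 : (P : Subgroup T) = ⊤ := Subgroup.isComplement'_bot_left.mp h1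
    apply hTc
    refine ⟨⟨fun x y => ?_⟩⟩
    have hx : x ∈ (P : Subgroup T) := by rw [h3]; exact Subgroup.mem_top x
    have hy : y ∈ (P : Subgroup T) := by rw [h3]; exact Subgroup.mem_top y
    have h4 := h (Subgroup.le_normalizer hy)
    exact Subgroup.mem_centralizer_iff.mp h4 x hx
  · rw [h2] at h1
    exact hP1 (Subgroup.isComplement'_top_left.mp h1)

/-- a self-normalizing `p`-subgroup is a Sylow subgroup -/
theorem sylow_of_selfNormalizing {T : Type*} [Group T] [Finite T] {p : ℕ} [Fact p.Prime]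
    (Q : Subgroup T) (hQ : IsPGroup p Q) (hN : Subgroup.normalizer (Q : Set T) = Q) :
    ∃ P : Sylow p T, (P : Subgroup T) = Q := by
  obtain ⟨P, hP⟩ := hQ.exists_le_sylow
  refine ⟨P, ?_⟩
  by_contra hne
  have hnil : Group.IsNilpotent P := P.isPGroup'.isNilpotent
  have hlt : Q.subgroupOf (P : Subgroup T) < ⊤ := by
    rw [lt_top_iff_ne_top]
    intro h
    exact hne (le_antisymm (Subgroup.subgroupOf_eq_top.mp h) hP)
  have h1 := Group.normalizerCondition_of_isNilpotent (Q.subgroupOf (P : Subgroup T)) hlt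
  obtain ⟨x, hx, hx'⟩ := SetLike.exists_of_lt h1
  apply hx'
  rw [Subgroup.mem_subgroupOf, ← hN, Subgroup.mem_normalizer_iff]
  rw [Subgroup.mem_normalizer_iff] at hx
  intro y
  constructor
  · intro hy
    have := (hx ⟨y, hP hy⟩).mp (Subgroup.mem_subgroupOf.mpr hy)
    rw [Subgroup.mem_subgroupOf] at this
    exact this
  · intro hy
    have hyP : y ∈ (P : Subgroup T) := by
      have h3 := (P : Subgroup T).mul_mem ((P : Subgroup T).mul_mem ((P : Subgroup T).inv_mem x.2)
        (hP hy)) x.2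
      have h4 : (x : T)⁻¹ * (x * y * (x : T)⁻¹) * x = y := by group
      rwa [h4] at h3
    have := (hx ⟨y, hyP⟩).mpr (Subgroup.mem_subgroupOf.mpr hy)
    rw [Subgroup.mem_subgroupOf] at this
    exact this

section Act

variable {T A : Type*} [Group T] [Group A] [MulAction A T]

/-- `a` acts as an automorphism or an anti-automorphism. -/
def AutOrAnti (A T : Type*) [Group T] [Group A] [MulAction A T] : Prop :=
  ∀ a : A, (∀ x y : T, a • (x * y) = (a • x) * (a • y)) ∨
    (∀ x y : T, a • (x * y) = (a • y) * (a • x))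

theorem AutOrAnti.one (h : AutOrAnti A T) (a : A) : a • (1 : T) = 1 := by
  rcases h a with h1 | h1
  · have := h1 1 1
    rw [mul_one] at this
    exact left_eq_mul.mp this
  · have := h1 1 1
    rw [mul_one] at this
    exact left_eq_mul.mp this

theorem AutOrAnti.pow (h : AutOrAnti A T) (a : A) (x : T) (n : ℕ) : a • (x ^ n) = (a • x) ^ n := by
  induction n with
  | zero => rw [pow_zero, pow_zero, h.one]
  | succ n ih =>
    rcases h a with h1 | h1
    · rw [pow_succ, h1, ih, pow_succ]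
    · rw [pow_succ, h1, ih, pow_succ']

theorem AutOrAnti.commute (h : AutOrAnti A T) (a : A) {x y : T} (hxy : x * y = y * x) :
    (a • x) * (a • y) = (a • y) * (a • x) := by
  rcases h a with h1 | h1
  · rw [← h1, hxy, h1]
  · rw [← h1, ← hxy, h1]

theorem AutOrAnti.stab_eq_of_pow (h : AutOrAnti A T)
    (h3 : ∀ x : T, x ≠ 1 → IsCoatom (stabilizer A x)) (x : T) (n : ℕ) (hn : x ^ n ≠ 1) :
    stabilizer A x = stabilizer A (x ^ n) := by
  have hx : x ≠ 1 := by rintro rfl; exact hn (one_pow n)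
  have hle : stabilizer A x ≤ stabilizer A (x ^ n) := by
    intro a ha
    rw [mem_stabilizer_iff] at ha ⊢
    rw [h.pow, ha]
  rcases (h3 x hx).le_iff.mp hle with h4 | h4
  · exact absurd h4 (h3 _ hn).1
  · exact h4.symm

theorem exists_pow_eq_of_coprime {x y : T} (hxy : x * y = y * x) (hc : (orderOf x).Coprime (orderOf y)) :
    ∃ n : ℕ, (x * y) ^ n = x := by
  obtain ⟨n, hn1, hn2⟩ := Nat.chineseRemainder hc 1 0
  refine ⟨n, ?_⟩
  have h1 : x ^ n = x := by
    conv_rhs => rw [← pow_one x]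
    exact (pow_eq_pow_iff_modEq).mpr hn1
  have h2 : y ^ n = 1 := by
    rw [← pow_zero y]
    exact (pow_eq_pow_iff_modEq).mpr hn2
  rw [(show Commute x y from hxy).mul_pow, h1, h2, mul_one]

theorem AutOrAnti.stab_eq_of_coprime (h : AutOrAnti A T)
    (h3 : ∀ x : T, x ≠ 1 → IsCoatom (stabilizer A x)) {x y : T} (hx : x ≠ 1) (hy : y ≠ 1)
    (hxy : x * y = y * x) (hc : (orderOf x).Coprime (orderOf y)) :
    stabilizer A x = stabilizer A y := by
  obtain ⟨n, hn⟩ := exists_pow_eq_of_coprime hxy hc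
  obtain ⟨m, hm⟩ := exists_pow_eq_of_coprime hxy.symm hc.symm
  have h1 := h.stab_eq_of_pow h3 (x * y) n (by rw [hn]; exact hx)
  have h2 := h.stab_eq_of_pow h3 (x * y) m (by rw [hxy, hm]; exact hy)
  rw [← hn, ← h1, h2, hxy, hm]

theorem mem_centralizer_singleton_iff' {x t : T} :
    t ∈ Subgroup.centralizer ({x} : Set T) ↔ t * x * t⁻¹ = x := by
  rw [Subgroup.mem_centralizer_singleton_iff, mul_inv_eq_iff_eq_mul]

/-- the key: invariant subgroups have normalizer `C(x)` -/
theorem AutOrAnti.normalizer_eq (hT : IsSimpleGroup T)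
    (h2 : ∀ t : T, ∃ a : A, ∀ x : T, a • x = t * x * t⁻¹)
    (h3 : ∀ x : T, x ≠ 1 → IsCoatom (stabilizer A x)) {x : T} (hx : x ≠ 1) (X : Subgroup T)
    (hX1 : X ≠ ⊥) (hX2 : X ≠ ⊤) (hinv : ∀ a ∈ stabilizer A x, ∀ y ∈ X, a • y ∈ X) :
    Subgroup.normalizer (X : Set T) = Subgroup.centralizer ({x} : Set T) := by
  let S : Subgroup A :=
    { carrier := {a | ∀ y : T, a • y ∈ X ↔ y ∈ X}
      mul_mem' := by
        intro a b ha hb y
        rw [mul_smul, ha, hb]
      one_mem' := by
        intro y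
        rw [one_smul]
      inv_mem' := by
        intro a ha y
        rw [← ha (a⁻¹ • y), smul_inv_smul] }
  have hS : ∀ a : A, a ∈ S ↔ ∀ y : T, a • y ∈ X ↔ y ∈ X := fun a => Iff.rfl
  have hle : stabilizer A x ≤ S := by
    intro a ha
    rw [hS]
    intro y
    refine ⟨fun hy => ?_, hinv a ha y⟩
    have := hinv a⁻¹ (Subgroup.inv_mem _ ha) _ hy
    rwa [inv_smul_smul] at this
  rcases (h3 x hx).le_iff.mp hle with h4 | h4
  · exfalso
    have hn : X.Normal := by
      refine ⟨fun y hy t => ?_⟩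
      obtain ⟨a, ha⟩ := h2 t
      rw [← ha]
      have : a ∈ S := by rw [h4]; exact Subgroup.mem_top a
      exact (this y).mpr hy
    rcases hn.eq_bot_or_eq_top with h5 | h5
    · exact hX1 h5
    · exact hX2 h5
  · ext t
    obtain ⟨a, ha⟩ := h2 t
    rw [mem_centralizer_singleton_iff', Subgroup.mem_normalizer_iff]
    have : (∀ y : T, y ∈ X ↔ t * y * t⁻¹ ∈ X) ↔ a ∈ S := by
      rw [hS]
      constructor
      · intro h y
        rw [ha]
        exact (h y).symm
      · intro h y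
        rw [← ha]
        exact (h y).symm
    rw [show (∀ h : T, h ∈ X ↔ t * h * t⁻¹ ∈ X) ↔ a ∈ S from this, h4, mem_stabilizer_iff, ha]

theorem AutOrAnti.centralizer_inv (h : AutOrAnti A T) {x : T} {a : A} (ha : a ∈ stabilizer A x)
    {y : T} (hy : y ∈ Subgroup.centralizer ({x} : Set T)) :
    a • y ∈ Subgroup.centralizer ({x} : Set T) := by
  rw [Subgroup.mem_centralizer_singleton_iff] at hy ⊢
  have := h.commute a hy
  rwa [mem_stabilizer_iff.mp ha] at this

theorem AutOrAnti.centralizer_eq (h2 : ∀ t : T, ∃ a : A, ∀ x : T, a • x = t * x * t⁻¹) {x y : T}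
    (hxy : stabilizer A x = stabilizer A y) :
    Subgroup.centralizer ({x} : Set T) = Subgroup.centralizer ({y} : Set T) := by
  ext t
  obtain ⟨a, ha⟩ := h2 t
  rw [mem_centralizer_singleton_iff', mem_centralizer_singleton_iff', ← ha, ← ha,
    ← mem_stabilizer_iff, ← mem_stabilizer_iff, hxy]

theorem center_trivial_of_simple (hT : IsSimpleGroup T) (hTc : ¬ IsMulCommutative T) {x : T}
    (hx : ∀ y : T, x * y = y * x) : x = 1 := by
  have hn : (Subgroup.center T).Normal := inferInstance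
  have hxc : x ∈ Subgroup.center T := Subgroup.mem_center_iff.mpr (fun y => (hx y).symm)
  rcases hn.eq_bot_or_eq_top with h | h
  · rwa [h, Subgroup.mem_bot] at hxc
  · exfalso
    exact hTc (Subgroup.center_eq_top_iff.mp h)

/-- centralizers of `p`-elements are `p`-groups -/
theorem AutOrAnti.centralizer_isPGroup [Finite T] (hT : IsSimpleGroup T)
    (hTc : ¬ IsMulCommutative T) (h : AutOrAnti A T)
    (h2 : ∀ t : T, ∃ a : A, ∀ x : T, a • x = t * x * t⁻¹)
    (h3 : ∀ x : T, x ≠ 1 → IsCoatom (stabilizer A x)) {p : ℕ} [hp : Fact p.Prime] {x : T}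
    (hx : x ≠ 1) (hxp : ∃ k : ℕ, x ^ p ^ k = 1) :
    IsPGroup p (Subgroup.centralizer ({x} : Set T)) := by
  set C := Subgroup.centralizer ({x} : Set T) with hC
  have hxC : x ∈ C := by rw [hC, Subgroup.mem_centralizer_singleton_iff]
  have hmem : ∀ z : T, z ∈ C ↔ z * x = x * z := fun z => Subgroup.mem_centralizer_singleton_iff
  by_contra hnot
  -- an element of prime order `q ≠ p`
  have hq : ∃ q : ℕ, q.Prime ∧ q ≠ p ∧ q ∣ Nat.card C := by
    by_contra hcon
    push Not at hcon
    apply hnot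
    rw [IsPGroup.iff_card]
    exact ⟨_, Nat.eq_prime_pow_of_unique_prime_dvd Nat.card_pos.ne' (fun {q} hq hqd => by
      by_contra hne
      exact hcon q hq hne hqd)⟩
  obtain ⟨q, hq, hqp, hqd⟩ := hq
  haveI : Fact q.Prime := ⟨hq⟩
  obtain ⟨⟨y, hyC⟩, hy⟩ := exists_prime_orderOf_dvd_card' q hqd
  rw [← Subgroup.orderOf_coe] at hy
  change orderOf y = q at hy
  have hy1 : y ≠ 1 := by
    rintro rfl
    rw [orderOf_one] at hy
    exact hq.one_lt.ne hy
  obtain ⟨k, hk⟩ := hxp
  obtain ⟨k', -, hk'⟩ := (Nat.dvd_prime_pow hp.out).mp (orderOf_dvd_of_pow_eq_one hk)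
  have hcop : ∀ {z w : T} {r : ℕ}, r.Prime → r ≠ p → (∃ j, orderOf z = p ^ j) → orderOf w = r →
      (orderOf z).Coprime (orderOf w) := by
    rintro z w r hr hrp ⟨j, hj⟩ hw
    rw [hj, hw]
    exact Nat.Coprime.pow_left _ ((Nat.coprime_primes hp.out hr).mpr hrp.symm)
  have hAxy : stabilizer A x = stabilizer A y :=
    h.stab_eq_of_coprime h3 hx hy1 ((hmem y).mp hyC).symm (hcop hq hqp ⟨k', hk'⟩ hy)
  have hCy : C = Subgroup.centralizer ({y} : Set T) := AutOrAnti.centralizer_eq h2 hAxy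
  -- all nontrivial elements of `C` have the same stabilizer
  have hall : ∀ z ∈ C, z ≠ 1 → stabilizer A z = stabilizer A x := by
    intro z hz hz1
    obtain ⟨r, hr, hrz⟩ := Nat.exists_prime_and_dvd (n := orderOf z)
      (fun h' => hz1 (orderOf_eq_one_iff.mp h'))
    have hzpos : 0 < orderOf z := orderOf_pos z
    set m := orderOf z / r with hm
    have hw : orderOf (z ^ m) = r := by
      rw [orderOf_pow, hm]
      have h1 : orderOf z / r ∣ orderOf z := Nat.div_dvd_of_dvd hrz
      rw [Nat.gcd_eq_right h1]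
      exact Nat.div_div_self hrz hzpos.ne'
    have hw1 : z ^ m ≠ 1 := by
      intro h'
      rw [h', orderOf_one] at hw
      exact hr.one_lt.ne hw
    have hwC : z ^ m ∈ C := C.pow_mem hz m
    rw [h.stab_eq_of_pow h3 z m hw1]
    by_cases hrp : r = p
    · have hwy : z ^ m * y = y * z ^ m := by
        have := hwC
        rw [hCy] at this
        exact Subgroup.mem_centralizer_singleton_iff.mp this
      rw [hAxy]
      exact h.stab_eq_of_coprime h3 hw1 hy1 hwy (hcop hq hqp ⟨1, by rw [hw, hrp, pow_one]⟩ hy)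
    · exact (h.stab_eq_of_coprime h3 hx hw1 ((hmem _).mp hwC).symm
        (hcop hr hrp ⟨k', hk'⟩ hw)).symm
  have hCz : ∀ z ∈ C, z ≠ 1 → Subgroup.centralizer ({z} : Set T) = C := fun z hz hz1 =>
    AutOrAnti.centralizer_eq h2 (hall z hz hz1)
  have hCab : ∀ z ∈ C, ∀ w ∈ C, z * w = w * z := by
    intro z hz w hw
    by_cases hz1 : z = 1
    · rw [hz1, one_mul, mul_one]
    · have := hw
      rw [← hCz z hz hz1, Subgroup.mem_centralizer_singleton_iff] at this
      exact this.symm
  -- the Sylow subgroup containing `x`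
  have hzx : IsPGroup p (Subgroup.zpowers x) := by
    rw [IsPGroup.iff_card]
    exact ⟨k', by rw [Nat.card_zpowers, hk']⟩
  obtain ⟨P, hP⟩ := hzx.exists_le_sylow
  have hxP : x ∈ (P : Subgroup T) := hP (Subgroup.mem_zpowers x)
  have hP1 : (P : Subgroup T) ≠ ⊥ := by
    intro h'
    rw [h', Subgroup.mem_bot] at hxP
    exact hx hxP
  have hnt : Nontrivial P := (Subgroup.nontrivial_iff_ne_bot _).mpr hP1
  have hcz : Nontrivial (Subgroup.center P) := P.isPGroup'.center_nontrivial
  obtain ⟨⟨⟨z, hzP⟩, hzc⟩, hz1⟩ := exists_ne (1 : Subgroup.center P)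
  have hz1' : z ≠ 1 := by
    rintro rfl
    exact hz1 rfl
  have hzcomm : ∀ w ∈ (P : Subgroup T), w * z = z * w := fun w hw =>
    congrArg Subtype.val (Subgroup.mem_center_iff.mp hzc ⟨w, hw⟩)
  have hzC : z ∈ C := (hmem z).mpr (hzcomm x hxP).symm
  have hPC : (P : Subgroup T) ≤ C := by
    rw [← hCz z hzC hz1']
    intro w hw
    rw [Subgroup.mem_centralizer_singleton_iff]
    exact hzcomm w hw
  -- `P` is the set of `p`-elements of `C`
  let Q : Subgroup T :=
    { carrier := {w | w ∈ C ∧ ∃ j : ℕ, w ^ p ^ j = 1}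
      mul_mem' := by
        rintro a b ⟨ha, i, hi⟩ ⟨hb, j, hj⟩
        refine ⟨C.mul_mem ha hb, i + j, ?_⟩
        rw [(show Commute a b from hCab a ha b hb).mul_pow, pow_add, pow_mul, hi, one_pow,
          mul_comm (p ^ i), pow_mul, hj, one_pow, one_mul]
      one_mem' := ⟨C.one_mem, 0, one_pow _⟩
      inv_mem' := by
        rintro a ⟨ha, i, hi⟩
        exact ⟨C.inv_mem ha, i, by rw [inv_pow, hi, inv_one]⟩ }
  have hQ : IsPGroup p Q := by
    rintro ⟨w, hw, j, hj⟩
    exact ⟨j, Subtype.ext hj⟩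
  have hPQ : (P : Subgroup T) ≤ Q := by
    intro w hw
    obtain ⟨j, hj⟩ := P.isPGroup' ⟨w, hw⟩
    exact ⟨hPC hw, j, congrArg Subtype.val hj⟩
  have hQP : Q = P := P.is_maximal' hQ hPQ
  have hPtop : (P : Subgroup T) ≠ ⊤ := by
    intro h'
    apply hTc
    refine ⟨⟨fun a b => hCab a (hPC (by rw [h']; exact Subgroup.mem_top a)) b
      (hPC (by rw [h']; exact Subgroup.mem_top b))⟩⟩
  have hN := AutOrAnti.normalizer_eq hT h2 h3 hx (P : Subgroup T) hP1 hPtop (by
    intro a ha w hw
    rw [← hQP] at hw ⊢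
    obtain ⟨hwC, j, hj⟩ := hw
    exact ⟨h.centralizer_inv ha hwC, j, by rw [← h.pow, hj, h.one]⟩)
  apply burnside_simple hT hTc P hP1
  rw [hN]
  intro w hw
  rw [Subgroup.mem_centralizer_iff]
  intro v hv
  exact hCab v (hPC hv) w hw

/-- Sylow subgroups are self-normalizing and non-abelian. -/
theorem AutOrAnti.sylow_props [Finite T] (hT : IsSimpleGroup T)
    (hTc : ¬ IsMulCommutative T) (h : AutOrAnti A T)
    (h2 : ∀ t : T, ∃ a : A, ∀ x : T, a • x = t * x * t⁻¹)
    (h3 : ∀ x : T, x ≠ 1 → IsCoatom (stabilizer A x)) {p : ℕ} [hp : Fact p.Prime] (P : Sylow p T)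
    (hP1 : (P : Subgroup T) ≠ ⊥) :
    Subgroup.normalizer ((P : Subgroup T) : Set T) = P ∧ ¬ IsMulCommutative P := by
  have hnt : Nontrivial P := (Subgroup.nontrivial_iff_ne_bot _).mpr hP1
  have hcz : Nontrivial (Subgroup.center P) := P.isPGroup'.center_nontrivial
  obtain ⟨⟨⟨z, hzP⟩, hzc⟩, hz1⟩ := exists_ne (1 : Subgroup.center P)
  have hz1' : z ≠ 1 := by
    rintro rfl
    exact hz1 rfl
  have hzcomm : ∀ w ∈ (P : Subgroup T), w * z = z * w := fun w hw =>
    congrArg Subtype.val (Subgroup.mem_center_iff.mp hzc ⟨w, hw⟩)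
  have hzp : ∃ k : ℕ, z ^ p ^ k = 1 := by
    obtain ⟨k, hk⟩ := P.isPGroup' ⟨z, hzP⟩
    exact ⟨k, congrArg Subtype.val hk⟩
  have hCp := AutOrAnti.centralizer_isPGroup hT hTc h h2 h3 hz1' hzp
  have hPC : (P : Subgroup T) ≤ Subgroup.centralizer ({z} : Set T) := by
    intro w hw
    rw [Subgroup.mem_centralizer_singleton_iff]
    exact hzcomm w hw
  have hCP : Subgroup.centralizer ({z} : Set T) = P := P.is_maximal' hCp hPC
  have hPtop : (P : Subgroup T) ≠ ⊤ := by
    intro h'
    apply hz1'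
    apply center_trivial_of_simple hT hTc
    intro y
    exact (hzcomm y (by rw [h']; exact Subgroup.mem_top y)).symm
  have hN := AutOrAnti.normalizer_eq hT h2 h3 hz1' (P : Subgroup T) hP1 hPtop (by
    intro a ha w hw
    rw [← hCP] at hw ⊢
    exact h.centralizer_inv ha hw)
  refine ⟨hN.trans hCP, fun hc => ?_⟩
  apply burnside_simple hT hTc P hP1
  rw [hN, hCP]
  intro w hw
  rw [Subgroup.mem_centralizer_iff]
  intro v hv
  exact congrArg Subtype.val (hc.is_comm.comm (⟨v, hv⟩ : P) ⟨w, hw⟩)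

/-- every nontrivial `p`-element is central in a Sylow subgroup -/
theorem AutOrAnti.mem_center_sylow [Finite T] (hT : IsSimpleGroup T)
    (hTc : ¬ IsMulCommutative T) (h : AutOrAnti A T)
    (h2 : ∀ t : T, ∃ a : A, ∀ x : T, a • x = t * x * t⁻¹)
    (h3 : ∀ x : T, x ≠ 1 → IsCoatom (stabilizer A x)) {p : ℕ} [hp : Fact p.Prime] {x : T}
    (hx : x ≠ 1) (hxp : ∃ k : ℕ, x ^ p ^ k = 1) :
    ∃ P : Sylow p T, x ∈ (P : Subgroup T) ∧ ∀ w ∈ (P : Subgroup T), w * x = x * w := by
  have hCp := AutOrAnti.centralizer_isPGroup hT hTc h h2 h3 hx hxp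
  have hxC : x ∈ Subgroup.centralizer ({x} : Set T) := by
    rw [Subgroup.mem_centralizer_singleton_iff]
  have hN := AutOrAnti.normalizer_eq hT h2 h3 hx (Subgroup.centralizer ({x} : Set T))
    (by
      intro h'
      rw [h', Subgroup.mem_bot] at hxC
      exact hx hxC)
    (by
      intro h'
      apply hx
      apply center_trivial_of_simple hT hTc
      intro y
      have : y ∈ Subgroup.centralizer ({x} : Set T) := by rw [h']; exact Subgroup.mem_top y
      exact (Subgroup.mem_centralizer_singleton_iff.mp this).symm)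
    (fun a ha w hw => h.centralizer_inv ha hw)
  obtain ⟨P, hP⟩ := sylow_of_selfNormalizing _ hCp hN
  refine ⟨P, by rw [hP]; exact hxC, fun w hw => ?_⟩
  rw [hP] at hw
  exact Subgroup.mem_centralizer_singleton_iff.mp hw

omit [MulAction A T] [Group A] in
/-- the centre of a nonabelian `p`-group has index at least `p²` -/
theorem card_center_mul_sq_le [Finite T] {p : ℕ} [hp : Fact p.Prime] (P : Sylow p T)
    (hP : ¬ IsMulCommutative P) : Nat.card (Subgroup.center P) * p ^ 2 ≤ Nat.card P := by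
  obtain ⟨c, hc⟩ := P.isPGroup'.index (Subgroup.center P)
  have h1 := Subgroup.card_mul_index (Subgroup.center P)
  rw [← h1, hc]
  apply Nat.mul_le_mul_left
  apply Nat.pow_le_pow_right hp.out.pos
  by_contra hlt
  apply hP
  have hq : Nat.card (P ⧸ Subgroup.center P) = p ^ c := by
    rw [← hc]; rfl
  have hcyc : IsCyclic (P ⧸ Subgroup.center P) := by
    have hc01 : c = 0 ∨ c = 1 := by omega
    rcases hc01 with rfl | rfl
    · rw [pow_zero] at hq
      have : Subsingleton (P ⧸ Subgroup.center P) := (Nat.card_eq_one_iff_unique.mp hq).1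
      exact isCyclic_of_subsingleton
    · rw [pow_one] at hq
      exact isCyclic_of_prime_card hq
  exact MonoidHom.isMulCommutative_of_isCyclic_of_ker_le_center
    (QuotientGroup.mk' (Subgroup.center P)) (by rw [QuotientGroup.ker_mk'])

/-- counting `p`-elements -/
theorem AutOrAnti.card_pElements [Fintype T] [DecidableEq T] (hT : IsSimpleGroup T)
    (hTc : ¬ IsMulCommutative T) (h : AutOrAnti A T)
    (h2 : ∀ t : T, ∃ a : A, ∀ x : T, a • x = t * x * t⁻¹)
    (h3 : ∀ x : T, x ≠ 1 → IsCoatom (stabilizer A x)) {p : ℕ} (hp : p.Prime)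
    (hpT : p ∣ Fintype.card T) (E : Finset T) (hE : ∀ x ∈ E, x ≠ 1 ∧ ∃ k : ℕ, x ^ p ^ k = 1) :
    E.card * p ^ 2 < Fintype.card T := by
  classical
  haveI : Fact p.Prime := ⟨hp⟩
  haveI : Fintype (Sylow p T) := Fintype.ofFinite _
  have hcard : ∀ P Q : Sylow p T, Nat.card P = Nat.card Q := fun P Q => by
    rw [Sylow.card_eq_multiplicity, Sylow.card_eq_multiplicity]
  have hP1 : ∀ P : Sylow p T, (P : Subgroup T) ≠ ⊥ := by
    intro P
    apply P.ne_bot_of_dvd_card
    rwa [Nat.card_eq_fintype_card]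
  let Z : Sylow p T → Finset T := fun P =>
    Finset.univ.filter (fun x => x ≠ 1 ∧ x ∈ (P : Subgroup T) ∧ ∀ w ∈ (P : Subgroup T), w * x = x * w)
  have hZcard : ∀ P : Sylow p T, (Z P).card * p ^ 2 + p ^ 2 ≤ Nat.card P := by
    intro P
    have hne := (AutOrAnti.sylow_props hT hTc h h2 h3 P (hP1 P)).2
    have h4 := card_center_mul_sq_le P hne
    have h5 : (Z P).card + 1 ≤ Nat.card (Subgroup.center P) := by
      have h1Z : (1 : T) ∉ Z P := by
        intro h'
        exact (Finset.mem_filter.mp h').2.1 rfl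
      rw [← Finset.card_insert_of_notMem h1Z, ← Nat.card_eq_finsetCard]
      have h6 : ∀ x : (insert (1 : T) (Z P) : Finset T),
          (x : T) ∈ (P : Subgroup T) ∧ ∀ w ∈ (P : Subgroup T), w * (x : T) = x * w := by
        rintro ⟨x, hx⟩
        rcases Finset.mem_insert.mp hx with rfl | hx
        · exact ⟨Subgroup.one_mem _, fun w _ => by rw [mul_one, one_mul]⟩
        · exact (Finset.mem_filter.mp hx).2.2
      apply Nat.card_le_card_of_injective (fun x : (insert (1 : T) (Z P) : Finset T) =>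
        (⟨⟨(x : T), (h6 x).1⟩, Subgroup.mem_center_iff.mpr (fun w =>
          Subtype.ext ((h6 x).2 w w.2))⟩ : Subgroup.center P))
      intro x y hxy
      apply Subtype.ext
      exact congrArg (fun z : Subgroup.center P => ((z : P) : T)) hxy
    calc (Z P).card * p ^ 2 + p ^ 2 = ((Z P).card + 1) * p ^ 2 := by ring
      _ ≤ Nat.card (Subgroup.center P) * p ^ 2 := Nat.mul_le_mul_right _ h5
      _ ≤ _ := h4
  have hsub : E ⊆ Finset.univ.biUnion Z := by
    intro x hx
    obtain ⟨hx1, hxp⟩ := hE x hx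
    obtain ⟨P, hP, hPx⟩ := AutOrAnti.mem_center_sylow hT hTc h h2 h3 hx1 hxp
    rw [Finset.mem_biUnion]
    exact ⟨P, Finset.mem_univ _, Finset.mem_filter.mpr ⟨Finset.mem_univ _, hx1, hP, hPx⟩⟩
  have hE1 : E.card ≤ ∑ P : Sylow p T, (Z P).card :=
    (Finset.card_le_card hsub).trans Finset.card_biUnion_le
  obtain ⟨P0⟩ : Nonempty (Sylow p T) := inferInstance
  have hsum : Fintype.card (Sylow p T) * Nat.card P0 = Fintype.card T := by
    have h8 : Subgroup.normalizer (P0 : Set T) = (P0 : Subgroup T) :=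
      (AutOrAnti.sylow_props hT hTc h h2 h3 P0 (hP1 P0)).1
    rw [← Nat.card_eq_fintype_card, P0.card_eq_index_normalizer, h8, mul_comm,
      Subgroup.card_mul_index, Nat.card_eq_fintype_card]
  have hpos : 0 < Fintype.card (Sylow p T) := Fintype.card_pos
  calc E.card * p ^ 2 ≤ (∑ P : Sylow p T, (Z P).card) * p ^ 2 := Nat.mul_le_mul_right _ hE1
    _ = ∑ P : Sylow p T, (Z P).card * p ^ 2 := by rw [Finset.sum_mul]
    _ < ∑ P : Sylow p T, Nat.card P0 := by
        apply Finset.sum_lt_sum_of_nonempty ⟨P0, Finset.mem_univ _⟩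
        intro P _
        have := hZcard P
        rw [hcard P P0] at this
        have : 0 < p ^ 2 := pow_pos hp.pos 2
        omega
    _ = Fintype.card T := by rw [Finset.sum_const, Finset.card_univ, smul_eq_mul, hsum]

/-- **The main lemma.** -/
theorem AutOrAnti.false_of_coatoms [Finite T] (hT : IsSimpleGroup T)
    (hTc : ¬ IsMulCommutative T) (h : AutOrAnti A T)
    (h2 : ∀ t : T, ∃ a : A, ∀ x : T, a • x = t * x * t⁻¹)
    (h3 : ∀ x : T, x ≠ 1 → IsCoatom (stabilizer A x)) : False := by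
  classical
  haveI := Fintype.ofFinite T
  haveI := hT
  have hnt : Nontrivial T := hT.toNontrivial
  set n := Fintype.card T with hn
  have hn2 : 2 ≤ n := Fintype.one_lt_card
  let E : ℕ → Finset T := fun p => Finset.univ.filter (fun x => x ≠ 1 ∧ ∃ k : ℕ, x ^ p ^ k = 1)
  have hcover : Finset.univ.erase (1 : T) ⊆ n.primeFactors.biUnion E := by
    intro z hz
    have hz1 : z ≠ 1 := Finset.ne_of_mem_erase hz
    obtain ⟨r, hr, hrz⟩ := Nat.exists_prime_and_dvd (n := orderOf z)
      (fun h' => hz1 (orderOf_eq_one_iff.mp h'))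
    haveI : Fact r.Prime := ⟨hr⟩
    have hzpos : 0 < orderOf z := orderOf_pos z
    set m := orderOf z / r with hm
    have hw : orderOf (z ^ m) = r := by
      rw [orderOf_pow, hm]
      have h1 : orderOf z / r ∣ orderOf z := Nat.div_dvd_of_dvd hrz
      rw [Nat.gcd_eq_right h1]
      exact Nat.div_div_self hrz hzpos.ne'
    have hw1 : z ^ m ≠ 1 := by
      intro h'
      rw [h', orderOf_one] at hw
      exact hr.one_lt.ne hw
    have hwp : ∃ k : ℕ, (z ^ m) ^ r ^ k = 1 := ⟨1, by rw [pow_one, ← hw]; exact pow_orderOf_eq_one _⟩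
    have hCp := AutOrAnti.centralizer_isPGroup hT hTc h h2 h3 hw1 hwp
    have hzC : z ∈ Subgroup.centralizer ({z ^ m} : Set T) := by
      rw [Subgroup.mem_centralizer_singleton_iff]
      exact (Commute.refl z).pow_right m
    obtain ⟨k, hk⟩ := hCp ⟨z, hzC⟩
    rw [Finset.mem_biUnion]
    refine ⟨r, ?_, ?_⟩
    · rw [Nat.mem_primeFactors]
      exact ⟨hr, hrz.trans (orderOf_dvd_card), by omega⟩
    · exact Finset.mem_filter.mpr ⟨Finset.mem_univ _, hz1, k, congrArg Subtype.val hk⟩
  have h4 := (Finset.card_le_card hcover).trans Finset.card_biUnion_le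
  rw [Finset.card_erase_of_mem (Finset.mem_univ _), Finset.card_univ, ← hn] at h4
  have h5 : ∀ p ∈ n.primeFactors, ((E p).card : ℚ) < n * ((p : ℚ) ^ 2)⁻¹ := by
    intro p hp
    have hpp := Nat.prime_of_mem_primeFactors hp
    have h6 := AutOrAnti.card_pElements hT hTc h h2 h3 hpp (Nat.dvd_of_mem_primeFactors hp) (E p)
      (fun x hx => (Finset.mem_filter.mp hx).2)
    have hpos : (0 : ℚ) < (p : ℚ) ^ 2 := by
      have : (0 : ℚ) < p := by exact_mod_cast hpp.pos
      positivity
    rw [← div_eq_mul_inv, lt_div_iff₀ hpos]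
    exact_mod_cast h6
  have hne : n.primeFactors.Nonempty := by
    rw [Nat.nonempty_primeFactors]
    omega
  have h6 : ∑ p ∈ n.primeFactors, ((E p).card : ℚ) < ∑ p ∈ n.primeFactors, (n : ℚ) * ((p : ℚ) ^ 2)⁻¹ :=
    Finset.sum_lt_sum_of_nonempty hne h5
  have h7 : ∑ p ∈ n.primeFactors, ((p : ℚ) ^ 2)⁻¹ ≤ ∑ i ∈ Finset.Ioc 1 n, ((i : ℚ) ^ 2)⁻¹ := by
    apply Finset.sum_le_sum_of_subset_of_nonneg
    · intro p hp
      rw [Finset.mem_Ioc]
      exact ⟨(Nat.prime_of_mem_primeFactors hp).one_lt, Nat.le_of_mem_primeFactors hp⟩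
    · intro i _ _
      positivity
  have h8 := sum_Ioc_inv_sq_le_sub (α := ℚ) (k := 1) (n := n) one_ne_zero (by omega)
  rw [Nat.cast_one, inv_one] at h8
  have h9 : ((n - 1 : ℕ) : ℚ) ≤ ∑ p ∈ n.primeFactors, ((E p).card : ℚ) := by
    exact_mod_cast h4
  rw [← Finset.mul_sum] at h6
  have hnpos : (0 : ℚ) < n := by exact_mod_cast (by omega : 0 < n)
  have h10 : (n : ℚ) * ∑ p ∈ n.primeFactors, ((p : ℚ) ^ 2)⁻¹ ≤ n * (1 - (n : ℚ)⁻¹) :=
    mul_le_mul_of_nonneg_left (h7.trans h8) hnpos.le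
  have h11 : (n : ℚ) * (1 - (n : ℚ)⁻¹) = ((n - 1 : ℕ) : ℚ) := by
    rw [mul_sub, mul_one, mul_inv_cancel₀ hnpos.ne', Nat.cast_sub (by omega : 1 ≤ n), Nat.cast_one]
  rw [h11] at h10
  exact absurd (h9.trans_lt (h6.trans_le h10)) (lt_irrefl _)

end Act

end Cfsg.Agent.ExtPrim
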