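import Cfsg.Agent.ExtPrim.Singer
import Cfsg.Agent.ExtPrim.Basic
import Cfsg.Agent.H59.PrimComp2
import Cfsg.Agent.S3495

set_option autoImplicit false
set_option linter.style.haveILetI false

/-!
The soluble extremely primitive groups (S3496). Owner: helper58.
-/

namespace Cfsg.Agent.ExtPrim

open MulAction Cfsg.Agent.H59

/-- the normalizer quotient of a cyclic group of prime order whose action is by powers of `p` -/
theorem normal_prime_structure {H : Type*} [Group H] [Finite H] (F : Subgroup H) [F.Normal] {q : ℕ}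
    (hq : q.Prime) (hF : Nat.card F = q) (hC : Subgroup.centralizer (F : Set H) = F) {p d : ℕ}
    (hpq : q.Coprime p) (hd : p ^ d ≡ 1 [MOD q])
    (hpow : ∀ h : H, ∃ j : ℕ, ∀ x ∈ F, h * x * h⁻¹ = x ^ p ^ j) :
    (∃ h : H, F ⊔ Subgroup.zpowers h = ⊤) ∧ Nat.card H ∣ q * d := by
  classical
  haveI : Fact q.Prime := ⟨hq⟩
  haveI : IsCyclic F := isCyclic_of_prime_card hF
  let Φ : H →* MulAut F := MulAut.conjNormal (H := F)
  have hΦ : ∀ (h : H) (x : F), ((Φ h x : F) : H) = h * x * h⁻¹ := fun h x => rfl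
  have hker : Φ.ker = F := by
    refine Eq.trans ?_ hC
    ext h
    rw [MonoidHom.mem_ker, Subgroup.mem_centralizer_iff]
    constructor
    · intro hh x hx
      have := hΦ h ⟨x, hx⟩
      rw [hh] at this
      have h4 : x = h * x * h⁻¹ := this
      rw [eq_mul_inv_iff_mul_eq] at h4
      exact h4
    · intro hh
      ext x
      rw [hΦ, ← hh x x.2, mul_inv_cancel_right]
      rfl
  -- the power automorphism
  have hbij : Function.Bijective (fun x : F => x ^ p) := by
    apply Nat.Coprime.pow_left_bijective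
    rw [hF]; exact hpq
  have hcomm : ∀ x y : F, x * y = y * x :=
    fun x y => (IsCyclic.isMulCommutative (α := F)).is_comm.comm x y
  let ψ : MulAut F := MulEquiv.ofBijective
    ({ toFun := fun x => x ^ p
       map_one' := one_pow p
       map_mul' := fun x y => (show Commute x y from hcomm x y).mul_pow p } : F →* F) hbij
  have hψ : ∀ x : F, ψ x = x ^ p := fun x => rfl
  have hψj : ∀ (j : ℕ) (x : F), (ψ ^ j) x = x ^ p ^ j := by
    intro j
    induction j with
    | zero => intro x; rw [pow_zero, pow_zero, pow_one]; rfl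
    | succ j ih =>
      intro x
      rw [pow_succ, MulAut.mul_apply, ih, hψ, ← pow_mul, pow_succ, mul_comm]
  have hψd : ψ ^ d = 1 := by
    ext x
    rw [hψj]
    have h1 : orderOf x ∣ q := by rw [← hF]; exact orderOf_dvd_natCard x
    have h2 : x ^ p ^ d = x ^ 1 := (pow_eq_pow_iff_modEq).mpr (hd.of_dvd h1)
    rw [h2, pow_one]
    rfl
  have hrange : Φ.range ≤ Subgroup.zpowers ψ := by
    rintro _ ⟨h, rfl⟩
    obtain ⟨j, hj⟩ := hpow h
    rw [Subgroup.mem_zpowers_iff]
    refine ⟨j, ?_⟩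
    rw [zpow_natCast]
    ext x
    rw [hψj, hΦ, hj x x.2]
    rfl
  have hcard : Nat.card Φ.range ∣ d := by
    have h1 := Subgroup.card_dvd_of_le hrange
    rw [Nat.card_zpowers] at h1
    exact h1.trans (orderOf_dvd_of_pow_eq_one hψd)
  refine ⟨?_, ?_⟩
  · haveI : IsCyclic Φ.range := by
      have := Subgroup.isCyclic (H := Φ.range.subgroupOf (Subgroup.zpowers ψ))
      exact isCyclic_of_surjective (Subgroup.subgroupOfEquivOfLe hrange)
        (Subgroup.subgroupOfEquivOfLe hrange).surjective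
    obtain ⟨⟨_, h, rfl⟩, hg⟩ := IsCyclic.exists_generator (α := Φ.range)
    refine ⟨h, ?_⟩
    rw [eq_top_iff]
    intro k _
    obtain ⟨i, hi⟩ := Subgroup.mem_zpowers_iff.mp (hg ⟨Φ k, k, rfl⟩)
    have hi' : Φ h ^ i = Φ k := congrArg Subtype.val hi
    have h1 : k * (h ^ i)⁻¹ ∈ F := by
      rw [← hker, MonoidHom.mem_ker, map_mul, map_inv, map_zpow, hi', mul_inv_cancel]
    have h2 : k = (k * (h ^ i)⁻¹) * h ^ i := by group
    rw [h2]
    exact Subgroup.mul_mem _ (Subgroup.mem_sup_left h1)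
      (Subgroup.mem_sup_right (Subgroup.zpow_mem _ (Subgroup.mem_zpowers h) i))
  · have h0 : Nat.card Φ.ker = q := by rw [hker, hF]
    have h1 : Nat.card H = q * Nat.card Φ.range := by
      rw [← h0, ← Subgroup.index_ker, Subgroup.card_mul_index]
    rw [h1]
    exact Nat.mul_dvd_mul_left q hcard

theorem solvable_structure {G : Type*} [Group G] [Finite G] {Ω : Type*} [Fintype Ω] [MulAction G Ω]
    [FaithfulSMul G Ω] [hsol : Group.IsSolvable G] (p d : ℕ) (hp : p.Prime)
    (hcard : Fintype.card Ω = p ^ d) (hprim : IsPreprimitive G Ω)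
    (hH : ∀ α : Ω, stabilizer G α ≠ ⊥) (hep : IsEP G Ω) (α : Ω) :
    ∃ q : ℕ, q.Prime ∧ (∀ ω : Ω, ω ≠ α → Nat.card (orbit (stabilizer G α) ω) = q) ∧
      q ∣ p ^ d - 1 ∧ (∀ i : ℕ, 0 < i → i < d → ¬ q ∣ p ^ i - 1) ∧
      ∃ T : Subgroup G, T ≤ stabilizer G α ∧
        stabilizer G α ≤ Subgroup.normalizer (T : Set G) ∧ Nat.card T = q ∧
        (∃ h : G, stabilizer G α = T ⊔ Subgroup.zpowers h) ∧
        Nat.card (stabilizer G α) ∣ q * d := by
  classical
  haveI : Fact p.Prime := ⟨hp⟩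
  haveI := hprim
  haveI : Nonempty Ω := ⟨α⟩
  -- `Ω` is nontrivial
  obtain ⟨β, hβ⟩ : ∃ β : Ω, α ≠ β := by
    by_contra hcon
    push Not at hcon
    apply hH α
    rw [Subgroup.eq_bot_iff_forall]
    intro g _
    apply FaithfulSMul.eq_of_smul_eq_smul (α := Ω)
    intro x
    rw [← hcon x, one_smul, ← hcon (g • α)]
  haveI : Nontrivial Ω := ⟨⟨α, β, hβ⟩⟩
  have hGtop : (⊤ : Subgroup G) ≠ ⊥ := by
    intro h
    apply hH α
    rw [eq_bot_iff, ← h]
    exact le_top
  obtain ⟨N, hN, -, hN1, hmin⟩ :=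
    Cfsg.Agent.Solv.exists_minimal_normal (⊤ : Subgroup G) inferInstance hGtop
  haveI := hN
  obtain ⟨hNab, r, hr, hNr⟩ :=
    Cfsg.Agent.Solv.minimal_normal_of_solvable N inferInstance hN1 hmin
  haveI hNtr : IsPretransitive N Ω := transitive_of_normal hprim N hN hN1
  have hNreg := stabilizer_eq_bot_of_abelian (Ω := Ω) N hNab
  have hNcomm : ∀ x ∈ N, ∀ y ∈ N, x * y = y * x := fun x hx y hy =>
    Cfsg.Agent.Solv.comm_of_isMulCommutative hNab hx hy
  have hNcard : Nat.card N = p ^ d := by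
    rw [card_eq_of_regular N hNtr α (hNreg α), Nat.card_eq_fintype_card, hcard]
  have hrp : r = p := by
    have hntN : Nontrivial N := (Subgroup.nontrivial_iff_ne_bot N).mpr hN1
    obtain ⟨x, hx⟩ := exists_ne (1 : N)
    have h1 : x ^ r = 1 := Subtype.ext (hNr x x.2)
    have h2 : x ^ p ^ d = 1 := by rw [← hNcard]; exact pow_card_eq_one'
    have h3 := orderOf_dvd_of_pow_eq_one h1
    have h4 := orderOf_dvd_of_pow_eq_one h2
    rcases (Nat.dvd_prime hr).mp h3 with h5 | h5
    · exact absurd (orderOf_eq_one_iff.mp h5) hx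
    · rw [h5] at h4
      exact (Nat.prime_dvd_prime_iff_eq hr hp).mp (hr.dvd_of_dvd_pow h4)
  rw [hrp] at hNr
  have hirr := Cfsg.Agent.S3495.result hprim hH hep N hNab p hp hNr hNtr hNreg α
  -- minimal normal subgroup of the stabilizer
  set H := stabilizer G α with hHdef
  have hHtop : (⊤ : Subgroup H) ≠ ⊥ := by
    intro h
    apply hH α
    rw [Subgroup.eq_bot_iff_forall]
    intro x hx
    have : (⟨x, hx⟩ : H) ∈ (⊤ : Subgroup H) := trivial
    rw [h, Subgroup.mem_bot] at this
    exact congrArg Subtype.val this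
  obtain ⟨F, hF, -, hF1, hFmin⟩ :=
    Cfsg.Agent.Solv.exists_minimal_normal (⊤ : Subgroup H) inferInstance hHtop
  haveI := hF
  obtain ⟨hFab, q, hq, hFq⟩ :=
    Cfsg.Agent.Solv.minimal_normal_of_solvable F inferInstance hF1 hFmin
  haveI : Fact q.Prime := ⟨hq⟩
  have hFcomm : ∀ x ∈ F, ∀ y ∈ F, x * y = y * x := fun x hx y hy =>
    Cfsg.Agent.Solv.comm_of_isMulCommutative hFab hx hy
  -- action on suborbits
  have horb : ∀ ω : Ω, α ≠ ω → IsPretransitive F (orbit H ω) ∧
      (∀ δ : orbit H ω, stabilizer F δ = ⊥) ∧ Nat.card F = Nat.card (orbit H ω) ∧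
      Subgroup.centralizer (F : Set H) = F := by
    intro ω hω
    haveI := faithful_suborbit hprim hH hep hω
    have ht := isPretransitive_of_normal (hep α ω) F hF1
    have hst := stabilizer_eq_bot_of_transitive_comm F ht hFcomm
    haveI : Nonempty (orbit H ω) := ⟨⟨ω, mem_orbit_self ω⟩⟩
    exact ⟨ht, hst, card_eq_of_regular F ht ⟨ω, mem_orbit_self ω⟩ (hst _),
      centralizer_eq_of_transitive_comm F ht hFcomm⟩
  have hFC : Subgroup.centralizer (F : Set H) = F := (horb β hβ).2.2.2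
  set M : Subgroup G := F.map H.subtype with hM
  have hMle : M ≤ H := Subgroup.map_subtype_le F
  have hM1 : M ≠ ⊥ := by
    intro h
    exact hF1 ((Subgroup.map_eq_bot_iff_of_injective _ H.subtype_injective).1 h)
  have hMn : H ≤ Subgroup.normalizer (M : Set G) := by
    intro g hg
    rw [Subgroup.mem_normalizer_iff]
    intro x
    constructor
    · rintro ⟨f, hf, rfl⟩
      exact ⟨⟨g, hg⟩ * f * ⟨g, hg⟩⁻¹, hF.conj_mem f hf _, rfl⟩
    · rintro ⟨f, hf, hfx⟩
      refine ⟨⟨g, hg⟩⁻¹ * f * ⟨g, hg⟩, ?_, ?_⟩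
      · have := hF.conj_mem f hf (⟨g, hg⟩ : H)⁻¹
        rwa [inv_inv] at this
      · change g⁻¹ * (f : G) * g = x
        change (f : G) = g * x * g⁻¹ at hfx
        rw [hfx]; group
  have hirrM := (hirr M hM1 hMle hMn).2
  -- the conjugation action on `N`
  letI instN : CommGroup N := { (inferInstance : Group N) with mul_comm := hNab.is_comm.comm }
  letI instF : CommGroup F := { (inferInstance : Group F) with mul_comm := hFab.is_comm.comm }
  haveI hntN : Nontrivial N := (Subgroup.nontrivial_iff_ne_bot N).mpr hN1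
  have hNpow : ∀ x : N, x ^ p = 1 := fun x => Subtype.ext (hNr x x.2)
  let κ : G →* MulAut N := MulAut.conjNormal (H := N)
  have hκ : ∀ (g : G) (x : N), ((κ g x : N) : G) = g * x * g⁻¹ := fun g x => rfl
  have hκinj : ∀ g ∈ H, κ g = 1 → g = 1 := by
    intro g hg h
    refine eq_one_of_commute_transitive (Ω := Ω) N g (fun k hk => ?_) α hg
    have h1 := hκ g ⟨k, hk⟩
    rw [h] at h1
    have h2 : k = g * k * g⁻¹ := h1
    rw [eq_mul_inv_iff_mul_eq] at h2
    exact h2
  have hκinj' : ∀ g ∈ H, ∀ g' ∈ H, κ g = κ g' → g = g' := by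
    intro g hg g' hg' h
    have := hκinj (g * g'⁻¹) (H.mul_mem hg (H.inv_mem hg')) (by
      rw [map_mul, map_inv, h, mul_inv_cancel])
    exact mul_inv_eq_one.mp this
  let f : F →* MulAut N := (κ.comp H.subtype).comp F.subtype
  have hf : ∀ x : F, f x = κ ((x : H) : G) := fun x => rfl
  have hfinj : Function.Injective f := by
    intro x y hxy
    exact Subtype.ext (Subtype.ext (hκinj' _ x.1.2 _ y.1.2 hxy))
  have hsub : ∀ (S : Set G) (L : Subgroup N), (∀ x ∈ S, ∀ l ∈ L, κ x l ∈ L) →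
      (∀ x ∈ S, ∃ x' ∈ S, x' = x⁻¹) →
      ∀ x ∈ S, x ∈ Subgroup.normalizer ((L.map N.subtype : Subgroup G) : Set G) := by
    intro S L hL hinv x hx
    rw [Subgroup.mem_normalizer_iff]
    intro y
    constructor
    · rintro ⟨l, hl, rfl⟩
      exact ⟨κ x l, hL x hx l hl, rfl⟩
    · rintro ⟨l, hl, hly⟩
      obtain ⟨x', hx', rfl⟩ := hinv x hx
      refine ⟨κ x⁻¹ l, hL _ hx' l hl, ?_⟩
      change x⁻¹ * (l : G) * x⁻¹⁻¹ = y
      change (l : G) = x * y * x⁻¹ at hly
      rw [hly]; group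
  have hLcase : ∀ L : Subgroup N, M ≤ Subgroup.normalizer ((L.map N.subtype : Subgroup G) : Set G) →
      L = ⊥ ∨ L = ⊤ := by
    intro L hL
    rcases hirrM (L.map N.subtype) (Subgroup.map_subtype_le L) hL with h | h
    · left
      exact (Subgroup.map_eq_bot_iff_of_injective _ N.subtype_injective).1 h
    · right
      rw [eq_top_iff]
      intro x _
      have : (x : G) ∈ L.map N.subtype := by rw [h]; exact x.2
      obtain ⟨l, hl, hlx⟩ := this
      have : l = x := Subtype.ext hlx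
      rwa [← this]
  haveI hFcyc : IsCyclic F := by
    apply mulAut_isCyclic_of_irr p hNpow f hfinj
    intro L hL
    apply hLcase
    rintro _ ⟨x, hx, rfl⟩
    exact hsub M L (by
      rintro _ ⟨y, hy, rfl⟩ l hl
      exact hL ⟨y, hy⟩ l hl) (fun y hy => ⟨y⁻¹, M.inv_mem hy, rfl⟩) _ ⟨x, hx, rfl⟩
  -- `|F| = q`
  obtain ⟨x, hx⟩ := IsCyclic.exists_generator (α := F)
  have hFcard : Nat.card F = q := by
    have h1 : orderOf x = Nat.card F := orderOf_eq_card_of_forall_mem_zpowers hx
    have h2 : x ^ q = 1 := Subtype.ext (hFq x x.2)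
    have h3 := orderOf_dvd_of_pow_eq_one h2
    rcases (Nat.dvd_prime hq).mp h3 with h4 | h4
    · exfalso
      apply hF1
      rw [← Subgroup.card_eq_one, ← h1, h4]
    · rw [← h1, h4]
  -- irreducibility of `κ x`
  set τ : MulAut N := κ ((x : H) : G) with hτ
  have hτirr : ∀ L : Subgroup N, (∀ l ∈ L, τ l ∈ L) → L = ⊥ ∨ L = ⊤ := by
    intro L hL
    apply hLcase
    have hL' : ∀ (i : ℕ), ∀ l ∈ L, (τ ^ i) l ∈ L := by
      intro i
      induction i with
      | zero => intro l hl; exact hl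
      | succ i ih => intro l hl; rw [pow_succ, MulAut.mul_apply]; exact ih _ (hL l hl)
    rintro _ ⟨y, hy, rfl⟩
    refine hsub M L ?_ (fun y hy => ⟨y⁻¹, M.inv_mem hy, rfl⟩) _ ⟨y, hy, rfl⟩
    rintro _ ⟨z, hz, rfl⟩ l hl
    obtain ⟨i, hi⟩ := (isOfFinOrder_of_finite x).mem_zpowers_iff_mem_range_orderOf.mp
      (hx ⟨z, hz⟩) |> Finset.mem_image.mp
    have h1 : (x : H) ^ i = z := congrArg Subtype.val hi.2
    have h2 : κ (z : G) = τ ^ i := by
      rw [hτ, ← map_pow, ← h1, Subgroup.coe_pow]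
    change κ (z : G) l ∈ L
    rw [h2]
    exact hL' i l hl
  -- divisibility
  have hdvd : q ∣ p ^ d - 1 := by
    have h1 := card_dvd_of_semiregular F (by
      intro ω hω g hg hgω
      have h2 := (horb ω (Ne.symm hω)).2.1 ⟨ω, mem_orbit_self ω⟩
      have h3 : (⟨g, hg⟩ : F) ∈ stabilizer F (⟨ω, mem_orbit_self ω⟩ : orbit H ω) :=
        Subtype.ext hgω
      rw [h2, Subgroup.mem_bot] at h3
      exact congrArg Subtype.val h3)
    rwa [hFcard, Nat.card_eq_fintype_card, hcard] at h1
  have hpd1 : 1 ≤ p ^ d := Nat.one_le_pow _ _ hp.pos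
  have hmod : ∀ i : ℕ, q ∣ p ^ i - 1 → p ^ i ≡ 1 [MOD q] := fun i hi =>
    ((Nat.modEq_iff_dvd' (Nat.one_le_pow _ _ hp.pos)).mpr hi).symm
  have hxq : orderOf x ∣ q := by rw [← hFcard]; exact orderOf_dvd_natCard x
  refine ⟨q, hq, ?_, hdvd, ?_, M, hMle, hMn, ?_, ?_, ?_⟩
  · intro ω hω
    rw [← (horb ω (Ne.symm hω)).2.2.1, hFcard]
  · intro i hi0 hid hqi
    have h1 : x ^ p ^ i = x := by
      conv_rhs => rw [← pow_one x]
      exact (pow_eq_pow_iff_modEq).mpr ((hmod i hqi).of_dvd hxq)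
    have h2 : τ ^ p ^ i = τ := by
      have := congrArg f h1
      rwa [map_pow] at this
    exact absurd (Nat.le_of_dvd hi0 (mulAut_dvd_of_pow_eq p hNpow hNcard τ hτirr h2)) (by omega)
  · rw [← hFcard]
    exact Subgroup.card_map_of_injective H.subtype_injective
  all_goals
    have hstr := normal_prime_structure F hq hFcard hFC (p := p) (d := d)
      (by
        rw [Nat.coprime_primes hq hp]
        rintro rfl
        have h1 : q ∣ q ^ d := by
          apply dvd_pow_self
          rintro rfl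
          have : 1 < Fintype.card Ω := Fintype.one_lt_card
          rw [hcard, pow_zero] at this
          omega
        have h2 : q ∣ 1 := by
          have := (Nat.dvd_sub h1 hdvd)
          rwa [Nat.sub_sub_self hpd1] at this
        exact hq.one_lt.ne' (Nat.dvd_one.mp h2))
      (hmod d hdvd) (by
        intro h
        -- `h x h⁻¹ = x ^ a`
        obtain ⟨a, ha⟩ := (isOfFinOrder_of_finite x).mem_zpowers_iff_mem_range_orderOf.mp
          (hx ⟨h * x * h⁻¹, hF.conj_mem x x.2 h⟩) |> Finset.mem_image.mp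
        have ha1 : ((x : H) : G) ^ a = (h : G) * ((x : H) : G) * (h : G)⁻¹ := by
          have := congrArg (fun y : F => ((y : H) : G)) ha.2
          exact this
        obtain ⟨j, hj⟩ := mulAut_exists_pow p hNpow τ hτirr (κ (h : G)) a (by
          rw [hτ, ← map_mul, ← map_inv, ← map_mul, ← map_pow, ha1])
        have hj' : x ^ a = x ^ p ^ j := by
          apply hfinj
          rw [map_pow, map_pow]
          exact hj
        refine ⟨j, ?_⟩
        intro y hy
        obtain ⟨b, hb⟩ := (isOfFinOrder_of_finite x).mem_zpowers_iff_mem_range_orderOf.mp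
          (hx ⟨y, hy⟩) |> Finset.mem_image.mp
        have hb1 : (x : H) ^ b = y := congrArg Subtype.val hb.2
        have ha2 : h * (x : H) * h⁻¹ = (x : H) ^ p ^ j := by
          have h3 : (x : H) ^ a = h * (x : H) * h⁻¹ := congrArg Subtype.val ha.2
          rw [← h3]
          exact congrArg Subtype.val hj'
        rw [← hb1, ← conj_pow, ha2, ← pow_mul, ← pow_mul, mul_comm])
  · obtain ⟨h, hh⟩ := hstr.1
    refine ⟨(h : G), ?_⟩
    have h1 := congrArg (Subgroup.map H.subtype) hh
    rw [Subgroup.map_sup, MonoidHom.map_zpowers, ← MonoidHom.range_eq_map, Subgroup.range_subtype] at h1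
    exact h1.symm
  · exact hstr.2

end Cfsg.Agent.ExtPrim
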